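import Cfsg.Agent.Lib.RealCls.Mj

set_option autoImplicit false

namespace CfsgLib.RealCls

open Subgroup Cfsg

variable {G : Type*} [Group G] [Finite G] {d : ℕ} {L : Subgroup G}

theorem alp_odd {K : Type*} [Group K] [Finite K] (h : ∀ g : K, Two g → g ∈ center K) {a b : K}
    (ha : Odd (orderOf a)) (hb : Odd (orderOf b)) : Odd (orderOf (a * b)) := by
  have : Fact (Nat.Prime 2) := ⟨Nat.prime_two⟩
  obtain ⟨S⟩ : Nonempty (Sylow 2 K) := inferInstance
  have hS : (S : Subgroup K) ≤ center K := fun g hg => h g (two_of_mem S.isPGroup' hg)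
  have hm : Odd (center K).index := by
    rw [← Nat.not_even_iff_odd, even_iff_two_dvd]
    exact fun h2 => S.not_dvd_index (h2.trans (index_dvd_of_le hS))
  have e : (a * b) ^ (center K).index = a ^ (center K).index * b ^ (center K).index :=
    congrArg Subtype.val (map_mul (MonoidHom.transferCenterPow K) a b)
  have c : Commute (a ^ (center K).index) (b ^ (center K).index) :=
    (mem_center_iff.1 ((center K).pow_index_mem a) _).symm
  have h1 : (a * b) ^ ((center K).index * (orderOf a * orderOf b)) = 1 := by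
    rw [pow_mul, e, c.mul_pow, ← pow_mul, ← pow_mul, mul_comm (center K).index, mul_assoc, pow_mul,
      pow_orderOf_eq_one, one_pow, one_mul, mul_comm (orderOf a), mul_assoc, pow_mul, pow_orderOf_eq_one, one_pow]
  exact Odd.of_dvd_nat (hm.mul (ha.mul hb)) (orderOf_dvd_of_pow_eq_one h1)

theorem alp_conj {N : Subgroup G} (P : Sylow 2 G) (hP : (P : Subgroup G) ≤ N) {u : G} (hu : u ∈ N)
    (h2 : Two u) : ∃ n ∈ N, n * u * n⁻¹ ∈ (P : Subgroup G) := by
  have : Fact (Nat.Prime 2) := ⟨Nat.prime_two⟩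
  obtain ⟨k, hk⟩ := h2
  have hp : IsPGroup 2 (zpowers (⟨u, hu⟩ : N)) := Two.pg ⟨k, Subtype.ext hk⟩
  obtain ⟨Q, hQ⟩ := hp.exists_le_sylow
  obtain ⟨n, hn⟩ := MulAction.exists_smul_eq N Q (P.subtype hP)
  refine ⟨n, n.2, ?_⟩
  have h1 : n * ⟨u, hu⟩ * n⁻¹ ∈ ((n • Q : Sylow 2 N) : Subgroup N) :=
    smul_mem_pointwise_smul _ (MulAut.conj n) _ (hQ (mem_zpowers _))
  rw [hn] at h1
  exact h1

omit [Finite G] in
theorem alp_swap {r p q : G} (hp : p ∈ M r) (hq : q ∈ M r) :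
    (p * q) * r * (p * q)⁻¹ = (q * p) * r * (q * p)⁻¹ := by
  have h1 := mem_center_iff.1 (mem_M.1 hp)
  have h2 := mem_center_iff.1 (mem_M.1 hq)
  set a := p * r * p⁻¹ * r⁻¹ with ha
  set b := q * r * q⁻¹ * r⁻¹ with hb
  have e1 : p * r * p⁻¹ = a * r := by rw [ha]; group
  have e2 : q * r * q⁻¹ = b * r := by rw [hb]; group
  calc (p * q) * r * (p * q)⁻¹ = p * (q * r * q⁻¹) * p⁻¹ := by group
    _ = (p * b) * r * p⁻¹ := by rw [e2]; group
    _ = b * (p * r * p⁻¹) := by rw [h2]; group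
    _ = (b * a) * r := by rw [e1]; group
    _ = a * (q * r * q⁻¹) := by rw [h1, e2]; group
    _ = (q * a) * r * q⁻¹ := by rw [h1]; group
    _ = q * (p * r * p⁻¹) * q⁻¹ := by rw [e1]; group
    _ = _ := by group

omit [Finite G] in
theorem alp_sq {r p : G} (hr : r * r ∈ center G) (hp : p ∈ M r) : (p * p) * r = r * (p * p) := by
  have h1 := mem_center_iff.1 (mem_M.1 hp)
  have h2 := Zs_sq hr (phi_mem hp)
  set a := p * r * p⁻¹ * r⁻¹ with ha
  have e1 : p * r * p⁻¹ = a * r := by rw [ha]; group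
  have : (p * p) * r * (p * p)⁻¹ = r := by
    calc (p * p) * r * (p * p)⁻¹ = p * (p * r * p⁻¹) * p⁻¹ := by group
      _ = (p * a) * r * p⁻¹ := by rw [e1]; group
      _ = a * (p * r * p⁻¹) := by rw [h1]; group
      _ = (a * a) * r := by rw [e1]; group
      _ = r := by rw [h2, one_mul]
  rw [← mul_inv_eq_iff_eq_mul, this]

omit [Finite G] in
/-- the dihedral computation -/
theorem alp_y {x x' u v : G} (ho : Odd (orderOf (x * x'⁻¹))) (hu : u * x * u⁻¹ = x⁻¹)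
    (hu' : u * x' * u⁻¹ = x'⁻¹) (hv : v * x * v⁻¹ = x') (hv' : v * x' * v⁻¹ = x) :
    ∃ k : ℕ, u * ((x * x'⁻¹) ^ k * x') * u⁻¹ = ((x * x'⁻¹) ^ k * x')⁻¹ ∧
      v * ((x * x'⁻¹) ^ k * x') * v⁻¹ = (x * x'⁻¹) ^ k * x' ∧ ((x * x'⁻¹) ^ k * x' = 1 → x' = x⁻¹) := by
  obtain ⟨m, hm⟩ := ho
  set h := x * x'⁻¹ with hh
  have e : h ^ (m + 1) * h ^ (m + 1) = h := by
    rw [← pow_add, show m + 1 + (m + 1) = (2 * m + 1) + 1 by ring, ← hm, pow_succ, pow_orderOf_eq_one, one_mul]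
  have e1 : u * h * u⁻¹ = x'⁻¹ * h⁻¹ * x'⁻¹⁻¹ := by
    calc u * h * u⁻¹ = (u * x * u⁻¹) * (u * x' * u⁻¹)⁻¹ := by rw [hh]; group
      _ = _ := by rw [hu, hu', hh]; group
  have e2 : v * h * v⁻¹ = h⁻¹ := by
    calc v * h * v⁻¹ = (v * x * v⁻¹) * (v * x' * v⁻¹)⁻¹ := by rw [hh]; group
      _ = _ := by rw [hv, hv', hh]; group
  have e3 : u * h ^ (m + 1) * u⁻¹ = x'⁻¹ * (h ^ (m + 1))⁻¹ * x'⁻¹⁻¹ := by
    rw [← conj_pow, e1, conj_pow, inv_pow]
  have e4 : v * h ^ (m + 1) * v⁻¹ = (h ^ (m + 1))⁻¹ := by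
    rw [← conj_pow, e2, inv_pow]
  refine ⟨m + 1, ?_, ?_, ?_⟩
  · calc u * (h ^ (m + 1) * x') * u⁻¹ = (u * h ^ (m + 1) * u⁻¹) * (u * x' * u⁻¹) := by group
      _ = _ := by rw [e3, hu']; group
  · generalize h ^ (m + 1) = g at e e4
    calc v * (g * x') * v⁻¹ = (v * g * v⁻¹) * (v * x' * v⁻¹) := by group
      _ = g⁻¹ * h * x' := by rw [e4, hv', hh]; group
      _ = _ := by rw [← e]; group
  · intro h1
    rw [mul_eq_one_iff_eq_inv] at h1
    rw [h1, hh] at e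
    rw [← mul_right_cancel e, inv_inv]

theorem alpha_one (C : Ctx0 L d) (h : Alpha L d) : (Nat.card G).factorization 2 = d + 1 := by
  have : Fact (Nat.Prime 2) := ⟨Nat.prime_two⟩
  obtain ⟨r, x₀, D, hr, hx₀, hDr, hDx₀, hD⟩ := h
  have H := C.hyp
  have r0 := hr.r0 C
  have hDp := pg_of_card hD
  obtain ⟨P, hDP, hPM⟩ := claimC C r0 hDp (hDr.trans (centralizer_le_M r))
  have hPC : (P : Subgroup G) ⊓ centralizer ({r} : Set G) = D :=
    l1' H r0.2.2.2 r0.not_center hD (le_inf hDP hDr) P.isPGroup'.to_inf_left inf_le_right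
  have memD : ∀ p ∈ (P : Subgroup G), p * r * p⁻¹ = r → p ∈ D := by
    intro p hp e
    rw [← hPC]
    exact ⟨hp, mem_centralizer_singleton_iff.2 (mul_inv_eq_iff_eq_mul.1 e)⟩
  have cD : ∀ c ∈ D, c * r * c⁻¹ = r := fun c hc =>
    mul_inv_eq_iff_eq_mul.2 (mem_centralizer_singleton_iff.1 (hDr hc))
  have hPN : (P : Subgroup G) ≤ normalizer (D : Set G) := by
    intro p hp
    apply mem_normalizer_fintype
    intro c hc
    have hc' := hDP hc
    apply memD _ (mul_mem (mul_mem hp hc') (inv_mem hp))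
    rw [alp_swap (hPM (mul_mem hp hc')) (hPM (inv_mem hp)), inv_mul_cancel_left]
    exact cD c hc
  -- an inverter in the normalizer
  obtain ⟨E, hDE, hEx, hE, hEC⟩ := ext_sylow H hx₀ hDp (fun c hc =>
    Or.inl (mul_inv_eq_iff_eq_mul.2 (mem_centralizer_singleton_iff.1 (hDx₀ hc))))
  have hED : D = E ⊓ centralizer ({x₀} : Set G) :=
    eq_of_le_of_card_ge (le_inf hDE hDx₀) (by rw [hEC, hD])
  obtain ⟨u₀, hu₀, hu₀'⟩ : ∃ u ∈ E, u ∉ D := by
    by_contra hn
    push Not at hn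
    have := card_le_of_le (show E ≤ D from hn)
    rw [hE, hD, pow_succ] at this
    have : 0 < 2 ^ d := by positivity
    omega
  have hi₀ : u₀ * x₀ * u₀⁻¹ = x₀⁻¹ := by
    rcases hEx hu₀ with e | e
    · exact absurd (hED ▸ ⟨hu₀, mem_centralizer_singleton_iff.2 (mul_inv_eq_iff_eq_mul.1 e)⟩) hu₀'
    · exact e
  have hu₀N : u₀ ∈ normalizer (D : Set G) := by
    apply mem_normalizer_fintype
    intro c hc
    have e : c * x₀ = x₀ * c := mem_centralizer_singleton_iff.1 (hDx₀ hc)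
    rw [hED]
    refine mem_inf.2 ⟨mul_mem (mul_mem hu₀ (hDE hc)) (inv_mem hu₀), ?_⟩
    have : u₀ * c * u₀⁻¹ * x₀⁻¹ = x₀⁻¹ * (u₀ * c * u₀⁻¹) := by
      rw [← hi₀]
      calc u₀ * c * u₀⁻¹ * (u₀ * x₀ * u₀⁻¹) = u₀ * (c * x₀) * u₀⁻¹ := by group
        _ = _ := by rw [e]; group
    exact mem_centralizer_singleton_iff.2 (Commute.inv_right_iff.1 this)
  obtain ⟨n, hn, huP⟩ := alp_conj P hPN hu₀N (two_of_mem (pg_of_card hE) hu₀)
  have hx := hx₀.conj n
  have hu : (n * u₀ * n⁻¹) * (n * x₀ * n⁻¹) * (n * u₀ * n⁻¹)⁻¹ = (n * x₀ * n⁻¹)⁻¹ := by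
    calc _ = n * (u₀ * x₀ * u₀⁻¹) * n⁻¹ := by group
      _ = _ := by rw [hi₀]; group
  have conjK : ∀ g ∈ normalizer (D : Set G), ∀ y ∈ centralizer (D : Set G), g * y * g⁻¹ ∈ centralizer (D : Set G) := by
    intro g hg y hy c hc
    have := hy _ ((mem_normalizer_iff.1 (inv_mem hg) c).1 hc)
    calc c * (g * y * g⁻¹) = g * (g⁻¹ * c * g⁻¹⁻¹ * y) * g⁻¹ := by group
      _ = _ := by rw [this]; group
  have hxK : n * x₀ * n⁻¹ ∈ centralizer (D : Set G) :=
    conjK n hn x₀ (fun c hc => mem_centralizer_singleton_iff.1 (hDx₀ hc))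
  generalize n * x₀ * n⁻¹ = x at hx hu hxK
  generalize n * u₀ * n⁻¹ = u at hu huP
  have toC : ∀ y ∈ centralizer (D : Set G), D ≤ centralizer ({y} : Set G) :=
    fun y hy c hc => mem_centralizer_singleton_iff.2 (hy c hc)
  have hrD : r ∈ D := by
    have hrK : r ∈ centralizer (D : Set G) := fun c hc => mem_centralizer_singleton_iff.1 (hDr hc)
    exact l1_mem H r0.2.2.2 r0.not_center hD hDr r0.two (centralizer_le_normalizer _ hrK) rfl
  have hodd : ∀ a ∈ centralizer (D : Set G), ∀ b ∈ centralizer (D : Set G), Odd (orderOf a) → Odd (orderOf b) →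
      Odd (orderOf (a * b)) := by
    intro a ha b hb oa ob
    have := alp_odd (K := centralizer (D : Set G)) (a := ⟨a, ha⟩) (b := ⟨b, hb⟩) ?_
      (by rwa [← orderOf_coe]) (by rwa [← orderOf_coe])
    · rwa [← orderOf_coe] at this
    · rintro g ⟨k, hk⟩
      have hgD : (g : G) ∈ D := l1_mem H r0.2.2.2 r0.not_center hD hDr ⟨k, congrArg Subtype.val hk⟩
        (centralizer_le_normalizer _ g.2) (g.2 r hrD).symm
      exact mem_center_iff.2 (fun y => Subtype.ext (y.2 g hgD).symm)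
  have huD : u ∉ D := by
    intro hu'
    apply hx.ne_inv
    rw [← hu, hxK u hu', mul_inv_cancel_right]
  have key : ∀ v ∈ (P : Subgroup G), u⁻¹ * v ∈ D ∨ v ∈ D := by
    intro v hv
    have hx'K := conjK v (hPN hv) x hxK
    have hc : u⁻¹ * v⁻¹ * (u * v) ∈ D := by
      apply memD _ (mul_mem (mul_mem (inv_mem huP) (inv_mem hv)) (mul_mem huP hv))
      have := alp_swap (hPM huP) (hPM hv)
      calc _ = (v * u)⁻¹ * (u * v * r * (u * v)⁻¹) * (v * u) := by group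
        _ = r := by rw [this]; group
    have hv2 : v * v ∈ D :=
      memD _ (mul_mem hv hv) (mul_inv_eq_iff_eq_mul.2 (alp_sq r0.2.2.1 (hPM hv)))
    have hu' : u * (v * x * v⁻¹) * u⁻¹ = (v * x * v⁻¹)⁻¹ := by
      have := hxK _ hc
      calc u * (v * x * v⁻¹) * u⁻¹
          = v * u * (u⁻¹ * v⁻¹ * (u * v) * x) * (u⁻¹ * v⁻¹ * (u * v))⁻¹ * (v * u)⁻¹ := by group
        _ = v * (u * x * u⁻¹) * v⁻¹ := by rw [this]; group
        _ = _ := by rw [hu]; group
    have hv' : v * (v * x * v⁻¹) * v⁻¹ = x := by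
      have := hxK _ hv2
      calc v * (v * x * v⁻¹) * v⁻¹ = (v * v * x) * (v * v)⁻¹ := by group
        _ = x := by rw [this]; group
    have ox' : Odd (orderOf (v * x * v⁻¹)) := (hx.conj v).2.1
    have oh : Odd (orderOf (x * (v * x * v⁻¹)⁻¹)) :=
      hodd _ hxK _ (inv_mem hx'K) hx.2.1 (by rwa [orderOf_inv])
    obtain ⟨k, k1, k2, k3⟩ := alp_y oh hu hu' rfl hv'
    have hyK : (x * (v * x * v⁻¹)⁻¹) ^ k * (v * x * v⁻¹) ∈ centralizer (D : Set G) :=
      mul_mem (pow_mem (mul_mem hxK (inv_mem hx'K)) k) hx'K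
    by_cases hy : (x * (v * x * v⁻¹)⁻¹) ^ k * (v * x * v⁻¹) = 1
    · left
      have hp := mul_mem (inv_mem huP) hv
      refine l1_mem H hx.2.2 hx.not_center hD (toC x hxK) (two_of_mem P.isPGroup' hp) (hPN hp) ?_
      have := k3 hy
      calc u⁻¹ * v * x = u⁻¹ * (v * x * v⁻¹) * v := by group
        _ = u⁻¹ * (u * x * u⁻¹) * v := by rw [this, hu]
        _ = _ := by group
    · right
      have hy' := xs_of hy (hodd _ (pow_mem (mul_mem hxK (inv_mem hx'K)) k) _ hx'K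
        (Odd.of_dvd_nat oh (orderOf_pow_dvd k)) ox') k1
      exact l1_mem H hy'.2.2 hy'.not_center hD (toC _ hyK) (two_of_mem P.isPGroup' hv) (hPN hv)
        (mul_inv_eq_iff_eq_mul.1 k2)
  have hi : D.relIndex P = 2 :=
    relIndex_eq_two_iff_exists_notMem_and'.2 ⟨u⁻¹, inv_mem huP, by rwa [inv_mem_iff], key⟩
  have hc := (D.subgroupOf P).card_mul_index
  rw [Nat.card_congr (subgroupOfEquivOfLe hDP).toEquiv, hD, show (D.subgroupOf P).index = 2 from hi,
    P.card_eq_multiplicity, ← pow_succ] at hc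
  exact (Nat.pow_right_injective le_rfl hc).symm

end CfsgLib.RealCls
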