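import Cfsg.Agent.Lib.RealCls.Defs
import Cfsg.Agent.Lib.Invol.BaerSuzuki
import Cfsg.Agent.S3861

set_option autoImplicit false
set_option linter.unusedSectionVars false

namespace CfsgLib.RealCls

open Subgroup Cfsg

variable {G : Type*} [Group G] [Finite G] {d : ℕ}

omit [Finite G] in
theorem Two.eq_one {x : G} (hx : Two x) (h : Odd (orderOf x)) : x = 1 := by
  obtain ⟨k, hk⟩ := hx
  have h1 : orderOf x ∣ 2 ^ k := orderOf_dvd_of_pow_eq_one hk
  have h2 : (orderOf x).Coprime (2 ^ k) := (Nat.coprime_two_right.2 h).pow_right k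
  exact orderOf_eq_one_iff.1 (Nat.Coprime.eq_one_of_dvd h2 h1)

omit [Finite G] in
theorem two_of_sq {x : G} (h : x * x = 1) : Two x := ⟨1, by rw [pow_one, pow_two, h]⟩

omit [Finite G] in
theorem Two.of_sq {x : G} (h : Two (x * x)) : Two x := by
  obtain ⟨k, hk⟩ := h
  exact ⟨k + 1, by rw [pow_succ', pow_mul, pow_two, hk]⟩

omit [Finite G] in
theorem Two.inv {x : G} (h : Two x) : Two x⁻¹ := by
  obtain ⟨k, hk⟩ := h
  exact ⟨k, by rw [inv_pow, hk, inv_one]⟩

omit [Finite G] in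
theorem Two.conj {x : G} (h : Two x) (g : G) : Two (g * x * g⁻¹) := by
  obtain ⟨k, hk⟩ := h
  exact ⟨k, by rw [conj_pow, hk]; simp⟩

omit [Finite G] in
theorem Two.mul {x y : G} (h : Two x) (h' : Two y) (hc : x * y = y * x) : Two (x * y) := by
  obtain ⟨k, hk⟩ := h
  obtain ⟨l, hl⟩ := h'
  refine ⟨k + l, ?_⟩
  rw [Commute.mul_pow hc, pow_add, pow_mul, hk, one_pow, mul_comm, pow_mul, hl, one_pow, one_mul]

omit [Finite G] in
theorem XS.ne_inv {x : G} (hx : XS x) : x ≠ x⁻¹ := by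
  intro h
  exact hx.1 ((two_of_sq (by nth_rw 1 [h]; simp)).eq_one hx.2.1)

omit [Finite G] in
theorem XS.not_center {x : G} (hx : XS x) : x ∉ center G := by
  intro h
  obtain ⟨c, hc⟩ := isConj_iff.1 hx.2.2
  apply hx.ne_inv
  rw [← hc, mem_center_iff.1 h c]; simp

omit [Finite G] in
theorem orderOf_cj (x g : G) : orderOf (g * x * g⁻¹) = orderOf x :=
  (MulAut.conj g).orderOf_eq x

omit [Finite G] in
theorem real_conj {x : G} (hx : IsConj x x⁻¹) (g : G) : IsConj (g * x * g⁻¹) (g * x * g⁻¹)⁻¹ := by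
  obtain ⟨c, hc⟩ := isConj_iff.1 hx
  refine isConj_iff.2 ⟨g * c * g⁻¹, ?_⟩
  calc g * c * g⁻¹ * (g * x * g⁻¹) * (g * c * g⁻¹)⁻¹ = g * (c * x * c⁻¹) * g⁻¹ := by group
    _ = (g * x * g⁻¹)⁻¹ := by rw [hc]; group

omit [Finite G] in
theorem XS.conj {x : G} (hx : XS x) (g : G) : XS (g * x * g⁻¹) := by
  refine ⟨fun h => hx.1 ?_, by rw [orderOf_cj]; exact hx.2.1, real_conj hx.2.2 g⟩
  calc x = g⁻¹ * (g * x * g⁻¹) * g := by group
    _ = 1 := by rw [h]; simp

omit [Finite G] in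
theorem xs_of {x u : G} (h1 : x ≠ 1) (h2 : Odd (orderOf x)) (hu : u * x * u⁻¹ = x⁻¹) : XS x :=
  ⟨h1, h2, isConj_iff.2 ⟨u, hu⟩⟩

omit [Finite G] in
theorem pg_of_card {D : Subgroup G} (hD : Nat.card D = 2 ^ d) : IsPGroup 2 D := IsPGroup.of_card hD

omit [Finite G] in
theorem two_of_mem {T : Subgroup G} (hT : IsPGroup 2 T) {x : G} (hx : x ∈ T) : Two x :=
  CfsgLib.Core.isPGroup_subgroup_iff.1 hT x hx

omit [Finite G] in
theorem Two.pg {x : G} (hx : Two x) : IsPGroup 2 (zpowers x) :=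
  CfsgLib.Core.isPGroup_zpowers_iff.2 hx

/-- a 2-group extended by a normalizing 2-element -/
theorem pg_sup {T : Subgroup G} (hT : IsPGroup 2 T) {g : G} (hg : Two g) (hn : g ∈ normalizer (T : Set G)) :
    IsPGroup 2 (T ⊔ zpowers g : Subgroup G) :=
  IsPGroup.to_sup_of_normal_left' hT hg.pg (zpowers_le.2 hn)

theorem exists_syl {C T : Subgroup G} (hT : IsPGroup 2 T) (hle : T ≤ C) :
    ∃ D : Subgroup G, T ≤ D ∧ D ≤ C ∧ Nat.card D = 2 ^ (Nat.card C).factorization 2 := by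
  obtain ⟨P, hP⟩ := (hT.comap_subtype (K := C)).exists_le_sylow
  refine ⟨(P : Subgroup C).map C.subtype, fun t ht => ⟨⟨t, hle ht⟩, hP ht, rfl⟩, map_subtype_le _, ?_⟩
  rw [CfsgLib.Core.card_map_subtype, P.card_eq_multiplicity]

theorem l2 (H : Hyp G d) {x : G} (hr : IsConj x x⁻¹) (hc : x ∉ center G) {T : Subgroup G}
    (hT : IsPGroup 2 T) (hle : T ≤ centralizer ({x} : Set G)) :
    ∃ D : Subgroup G, T ≤ D ∧ D ≤ centralizer ({x} : Set G) ∧ Nat.card D = 2 ^ d := by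
  have := exists_syl hT hle
  rwa [H x hr hc] at this

theorem l1 (H : Hyp G d) {x : G} (hr : IsConj x x⁻¹) (hc : x ∉ center G) {T : Subgroup G}
    (hT : IsPGroup 2 T) (hle : T ≤ centralizer ({x} : Set G)) : Nat.card T ∣ 2 ^ d := by
  obtain ⟨D, h1, -, h3⟩ := l2 H hr hc hT hle
  exact h3 ▸ card_dvd_of_le h1

theorem l1' (H : Hyp G d) {x : G} (hr : IsConj x x⁻¹) (hc : x ∉ center G) {D T : Subgroup G}
    (hD : Nat.card D = 2 ^ d) (hDT : D ≤ T) (hT : IsPGroup 2 T) (hle : T ≤ centralizer ({x} : Set G)) :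
    T = D :=
  (CfsgLib.Core.eq_of_le_of_card_le hDT
    (hD ▸ Nat.le_of_dvd (by positivity) (l1 H hr hc hT hle))).symm

/-- a 2-element normalizing `D` and commuting with `x` lies in `D` -/
theorem l1_mem (H : Hyp G d) {x : G} (hr : IsConj x x⁻¹) (hc : x ∉ center G) {D : Subgroup G}
    (hD : Nat.card D = 2 ^ d) (hle : D ≤ centralizer ({x} : Set G)) {g : G} (hg : Two g)
    (hn : g ∈ normalizer (D : Set G)) (hgx : g * x = x * g) : g ∈ D := by
  have := l1' H hr hc hD le_sup_left (pg_sup (pg_of_card hD) hg hn)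
    (sup_le hle (zpowers_le.2 (mem_centralizer_singleton_iff.2 hgx)))
  exact this ▸ mem_sup_right (mem_zpowers g)

omit [Finite G] in
theorem cent_le_Ext (x : G) : centralizer ({x} : Set G) ≤ Ext x := fun g hg =>
  Or.inl (by rw [mem_centralizer_singleton_iff.1 hg]; simp)

omit [Finite G] in
/-- index two for a subgroup between the centralizer and the extended centralizer -/
theorem relIndex_two {x u : G} (hne : x ≠ x⁻¹) {E : Subgroup G} (hE : E ≤ Ext x) (hu : u ∈ E)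
    (hux : u * x * u⁻¹ = x⁻¹) : (centralizer ({x} : Set G)).relIndex E = 2 := by
  rw [relIndex_eq_two_iff]
  refine ⟨u, hu, fun b hb => ?_⟩
  simp only [mem_centralizer_singleton_iff]
  rcases hE hb with h | h
  · refine Or.inr ⟨mul_inv_eq_iff_eq_mul.1 h, fun h' => hne ?_⟩
    have : b * u * x * (b * u)⁻¹ = x := by rw [h']; group
    have e : b * u * x * (b * u)⁻¹ = (b * x * b⁻¹)⁻¹ := by
      calc b * u * x * (b * u)⁻¹ = b * (u * x * u⁻¹) * b⁻¹ := by group
        _ = (b * x * b⁻¹)⁻¹ := by rw [hux]; group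
    rw [e, h] at this
    exact this.symm
  · refine Or.inl ⟨?_, fun h' => hne ?_⟩
    · have e : b * u * x * (b * u)⁻¹ = (b * x * b⁻¹)⁻¹ := by
        calc b * u * x * (b * u)⁻¹ = b * (u * x * u⁻¹) * b⁻¹ := by group
          _ = (b * x * b⁻¹)⁻¹ := by rw [hux]; group
      rw [h, inv_inv] at e
      exact mul_inv_eq_iff_eq_mul.1 e
    · rw [← h, h']; simp

theorem card_two {x u : G} (hne : x ≠ x⁻¹) {E : Subgroup G} (hE : E ≤ Ext x) (hu : u ∈ E)
    (hux : u * x * u⁻¹ = x⁻¹) :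
    Nat.card E = 2 * Nat.card (E ⊓ centralizer ({x} : Set G) : Subgroup G) := by
  rw [← CfsgLib.Core.card_inf_mul_relIndex (centralizer ({x} : Set G)) E, relIndex_two hne hE hu hux, inf_comm,
    mul_comm]

theorem card_Ext {x : G} (hr : IsConj x x⁻¹) (hne : x ≠ x⁻¹) :
    Nat.card (Ext x) = 2 * Nat.card (centralizer ({x} : Set G)) := by
  obtain ⟨u, hu⟩ := isConj_iff.1 hr
  rw [card_two hne le_rfl (Or.inr hu) hu, inf_eq_right.2 (cent_le_Ext x)]

theorem fact_two_mul {n : ℕ} (hn : n ≠ 0) : (2 * n).factorization 2 = n.factorization 2 + 1 := by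
  rw [Nat.factorization_mul two_ne_zero hn]
  simp [Nat.Prime.factorization_self Nat.prime_two, add_comm]

theorem ext_sylow (H : Hyp G d) {x : G} (hx : XS x) {T : Subgroup G} (hT : IsPGroup 2 T) (hle : T ≤ Ext x) :
    ∃ E : Subgroup G, T ≤ E ∧ E ≤ Ext x ∧ Nat.card E = 2 ^ (d + 1) ∧
      Nat.card (E ⊓ centralizer ({x} : Set G) : Subgroup G) = 2 ^ d := by
  obtain ⟨E, h1, h2, h3⟩ := exists_syl hT hle
  rw [card_Ext hx.2.2 hx.ne_inv, fact_two_mul Nat.card_pos.ne', H x hx.2.2 hx.not_center] at h3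
  refine ⟨E, h1, h2, h3, ?_⟩
  by_cases h : E ≤ centralizer ({x} : Set G)
  · have := Nat.le_of_dvd (by positivity) (l1 H hx.2.2 hx.not_center (pg_of_card h3) h)
    rw [h3, pow_succ] at this
    have h0 : 0 < 2 ^ d := by positivity
    omega
  · obtain ⟨u, hu, hu'⟩ := SetLike.not_le_iff_exists.1 h
    have hux : u * x * u⁻¹ = x⁻¹ := (h2 hu).resolve_left fun e =>
      hu' (mem_centralizer_singleton_iff.2 (mul_inv_eq_iff_eq_mul.1 e))
    have := card_two hx.ne_inv h2 hu hux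
    rw [h3, pow_succ] at this
    omega

omit [Finite G] in
theorem cp {s t : G} (h : s * s = t * t) : t * (t⁻¹ * s) * t⁻¹ = (t⁻¹ * s)⁻¹ := by
  calc t * (t⁻¹ * s) * t⁻¹ = s⁻¹ * (s * s) * t⁻¹ := by group
    _ = (t⁻¹ * s)⁻¹ := by rw [h]; group

omit [Finite G] in
theorem coprime_fix {x u c : G} (hx : Odd (orderOf x)) (hc : Two c) (hxc : x * c = c * x)
    (h : x * u * x⁻¹ = u * c) : c = 1 := by
  have key : ∀ k : ℕ, x ^ k * u * (x ^ k)⁻¹ = u * c ^ k := by
    intro k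
    induction k with
    | zero => simp
    | succ k ih =>
      have e : x * c ^ k * x⁻¹ = c ^ k := by
        rw [(Commute.pow_right hxc k).eq]; simp
      calc x ^ (k + 1) * u * (x ^ (k + 1))⁻¹ = x * (x ^ k * u * (x ^ k)⁻¹) * x⁻¹ := by rw [pow_succ']; group
        _ = (x * u * x⁻¹) * (x * c ^ k * x⁻¹) := by rw [ih]; group
        _ = u * c ^ (k + 1) := by rw [h, e, pow_succ']; group
  have h1 := key (orderOf x)
  rw [pow_orderOf_eq_one] at h1
  have h2 : c ^ orderOf x = 1 := by simpa using h1.symm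
  exact hc.eq_one (hx.of_dvd_nat (orderOf_dvd_of_pow_eq_one h2))

omit [Finite G] in
theorem mem_zpowers_two_pow {x : G} (hx : Odd (orderOf x)) (k : ℕ) : x ∈ zpowers (x ^ 2 ^ k) :=
  mem_zpowers_pow_iff.2 ((Nat.coprime_two_left.2 hx).pow_left k)

omit [Finite G] in
theorem comm_of_comm_mul {s x g : G} (hs : Two s) (hx : Odd (orderOf x)) (hsx : s * x = x * s)
    (hg : g * (s * x) = (s * x) * g) : g * s = s * g ∧ g * x = x * g := by
  obtain ⟨k, hk⟩ := hs
  have h1 : Commute g (x ^ 2 ^ k) := by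
    have := Commute.pow_right (show Commute g (s * x) from hg) (2 ^ k)
    rwa [Commute.mul_pow hsx, hk, one_mul] at this
  obtain ⟨n, hn⟩ := mem_zpowers_iff.1 (mem_zpowers_two_pow hx k)
  have h2 : Commute g x := hn ▸ h1.zpow_right n
  refine ⟨?_, h2⟩
  have := (show Commute g (s * x) from hg).mul_right h2.inv_right
  simpa using this.eq

omit [Finite G] in
theorem cent_mul {s x : G} (hs : Two s) (hx : Odd (orderOf x)) (hsx : s * x = x * s) :
    centralizer ({s * x} : Set G) = centralizer ({s} : Set G) ⊓ centralizer ({x} : Set G) := by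
  ext g
  simp only [mem_inf, mem_centralizer_singleton_iff]
  exact ⟨comm_of_comm_mul hs hx hsx, fun h => (Commute.mul_right h.1 h.2).eq⟩

theorem card_cent_inf (H : Hyp G d) {s x w : G} (hs : Two s) (hx1 : x ≠ 1) (hx : Odd (orderOf x))
    (hsx : s * x = x * s) (hws : w * s * w⁻¹ = s⁻¹) (hwx : w * x * w⁻¹ = x⁻¹) :
    (Nat.card (centralizer ({s} : Set G) ⊓ centralizer ({x} : Set G) : Subgroup G)).factorization 2 = d := by
  rw [← cent_mul hs hx hsx]
  refine H _ (isConj_iff.2 ⟨w, ?_⟩) fun h => (xs_of hx1 hx hwx).not_center (mem_center_iff.2 fun g => ?_)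
  · calc w * (s * x) * w⁻¹ = (w * s * w⁻¹) * (w * x * w⁻¹) := by group
      _ = (x * s)⁻¹ := by rw [hws, hwx]; group
      _ = (s * x)⁻¹ := by rw [hsx]
  · exact (comm_of_comm_mul hs hx hsx (mem_center_iff.1 h g)).2

theorem h4 (H : Hyp G d) {s x w : G} (hs : Two s) (hx1 : x ≠ 1) (hx : Odd (orderOf x)) (hsx : s * x = x * s)
    (hws : w * s * w⁻¹ = s⁻¹) (hwx : w * x * w⁻¹ = x⁻¹) :
    ∃ D : Subgroup G, D ≤ centralizer ({s} : Set G) ∧ D ≤ centralizer ({x} : Set G) ∧ Nat.card D = 2 ^ d := by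
  obtain ⟨D, -, h2, h3⟩ := exists_syl (IsPGroup.of_bot (p := 2))
    (bot_le : ⊥ ≤ centralizer ({s} : Set G) ⊓ centralizer ({x} : Set G))
  rw [card_cent_inf H hs hx1 hx hsx hws hwx] at h3
  exact ⟨D, h2.trans inf_le_left, h2.trans inf_le_right, h3⟩

theorem h5 (H : Hyp G d) {s x w u : G} (hs : Two s) (hx1 : x ≠ 1) (hx : Odd (orderOf x)) (hsx : s * x = x * s)
    (hws : w * s * w⁻¹ = s⁻¹) (hwx : w * x * w⁻¹ = x⁻¹) (hus : u * s = s * u) (hux : u * x * u⁻¹ = x⁻¹) :
    s ∈ center G := by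
  by_contra hc
  have hX := xs_of hx1 hx hwx
  have h1 := card_two (E := centralizer ({s} : Set G) ⊓ Ext x) hX.ne_inv inf_le_right
    ⟨mem_centralizer_singleton_iff.2 hus, Or.inr hux⟩ hux
  rw [inf_assoc, inf_eq_right.2 (cent_le_Ext x)] at h1
  obtain ⟨D, -, h2, h3⟩ := exists_syl (IsPGroup.of_bot (p := 2))
    (bot_le : ⊥ ≤ centralizer ({s} : Set G) ⊓ Ext x)
  rw [h1, fact_two_mul Nat.card_pos.ne', card_cent_inf H hs hx1 hx hsx hws hwx] at h3
  have := Nat.le_of_dvd (by positivity)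
    (l1 H (isConj_iff.2 ⟨w, hws⟩) hc (pg_of_card h3) (h2.trans inf_le_left))
  rw [h3, pow_succ] at this
  have h0 : 0 < 2 ^ d := by positivity
  omega

theorem h3 (H : Hyp G d) {e x u : G} (he : e * e = 1) (hx1 : x ≠ 1) (hx : Odd (orderOf x)) (hex : e * x = x * e)
    (hue : u * e = e * u) (hux : u * x * u⁻¹ = x⁻¹) : e ∈ center G :=
  h5 H (two_of_sq he) hx1 hx hex (by rw [hue, inv_eq_of_mul_eq_one_right he]; simp) hux hue hux

theorem exists_step {T P : Subgroup G} (hP : IsPGroup 2 P) (hTP : T < P) :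
    ∃ g ∈ P, g ∉ T ∧ g ∈ normalizer (T : Set G) ∧ g * g ∈ T := by
  classical
  have hnil := hP.isNilpotent
  have hlt : T.subgroupOf P < ⊤ := by
    rw [lt_top_iff_ne_top, Ne, subgroupOf_eq_top]; exact not_le_of_gt hTP
  obtain ⟨g, hg, hg'⟩ := SetLike.exists_of_lt (Group.normalizerCondition_of_isNilpotent _ hlt)
  have hn : (g : G) ∈ normalizer (T : Set G) := by
    refine CfsgLib.Core.mem_normalizer_of_forall_conj_mem fun t ht => ?_
    have := (mem_normalizer_iff.1 hg ⟨t, hTP.le ht⟩).1 ht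
    simpa [mem_subgroupOf] using this
  have hex : ∃ k : ℕ, (g : G) ^ 2 ^ k ∈ T := by
    obtain ⟨k, hk⟩ := two_of_mem hP g.2
    exact ⟨k, hk ▸ one_mem _⟩
  have h0 : Nat.find hex ≠ 0 := by
    intro h
    have := Nat.find_spec hex
    rw [h] at this
    exact hg' (by simpa [mem_subgroupOf] using this)
  obtain ⟨k, hk⟩ := Nat.exists_eq_succ_of_ne_zero h0
  refine ⟨(g : G) ^ 2 ^ k, pow_mem g.2 _, Nat.find_min hex (by omega), pow_mem hn _, ?_⟩
  have := Nat.find_spec hex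
  rw [hk, Nat.succ_eq_add_one, pow_succ, pow_mul, pow_two] at this
  exact this

theorem l6 (H : Hyp G d) {x : G} (hx : XS x) {D T : Subgroup G} (hD : D ≤ centralizer ({x} : Set G))
    (hDc : Nat.card D = 2 ^ d) (hDT : D ≤ T) (hT : IsPGroup 2 T) (hxT : x ∈ normalizer (T : Set G)) : T = D := by
  by_contra hne
  obtain ⟨t, htT, htD, htn, ht2⟩ := exists_step hT (lt_of_le_of_ne hDT (Ne.symm hne))
  have hfix : ∀ c ∈ D, x * c * x⁻¹ = c := fun c hc => by
    rw [← mem_centralizer_singleton_iff.1 (hD hc)]; simp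
  set s := t⁻¹ * (x * t * x⁻¹) with hs
  have hsT : s ∈ T := mul_mem (inv_mem htT) ((mem_normalizer_iff.1 hxT t).1 htT)
  have hsq : (x * t * x⁻¹) * (x * t * x⁻¹) = t * t := by
    calc (x * t * x⁻¹) * (x * t * x⁻¹) = x * (t * t) * x⁻¹ := by group
      _ = t * t := hfix _ ht2
  have hsD : ∀ c ∈ D, c * s = s * c := by
    intro c hc
    have h1 : x * (t * c * t⁻¹) * x⁻¹ = t * c * t⁻¹ := hfix _ ((mem_normalizer_iff.1 htn c).1 hc)
    have h2 : x⁻¹ * c * x = c := by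
      calc x⁻¹ * c * x = x⁻¹ * (x * c * x⁻¹) * x := by rw [hfix c hc]
        _ = c := by group
    calc c * s = t⁻¹ * (t * c * t⁻¹) * (x * t * x⁻¹) := by rw [hs]; group
      _ = t⁻¹ * (x * (t * c * t⁻¹) * x⁻¹) * (x * t * x⁻¹) := by rw [h1]
      _ = t⁻¹ * x * t * x⁻¹ * (x * c * x⁻¹) := by group
      _ = s * c := by rw [hfix c hc, hs]; group
  have hxs : x * s = s * x := by
    by_cases hc : s ∈ center G
    · exact mem_center_iff.1 hc x
    · have : s ∈ D := l1_mem H (isConj_iff.2 ⟨t, cp hsq⟩) hc hDc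
        (fun c hc => mem_centralizer_singleton_iff.2 (hsD c hc)) (two_of_mem hT hsT)
        (CfsgLib.Core.mem_normalizer_of_forall_conj_mem fun c hc => by rw [← hsD c hc]; simpa using hc) rfl
      exact (mem_centralizer_singleton_iff.1 (hD this)).symm
  have h1 : s = 1 := coprime_fix (u := t) hx.2.1 (two_of_mem hT hsT) hxs (by rw [hs]; group)
  have h2 : t * x = x * t := by
    have : x * t * x⁻¹ = t := by
      calc x * t * x⁻¹ = t * s := by rw [hs]; group
        _ = t := by rw [h1, mul_one]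
    exact (mul_inv_eq_iff_eq_mul.1 this).symm
  exact htD (l1_mem H hx.2.2 hx.not_center hDc hD (two_of_mem hT htT) htn h2)

theorem exists_odd_pow (y : G) : ∃ k : ℕ, Odd (orderOf (y ^ 2 ^ k)) := by
  obtain ⟨k, m, hm, h⟩ := Nat.exists_eq_two_pow_mul_odd (orderOf_pos y).ne'
  refine ⟨k, hm.of_dvd_nat (orderOf_dvd_of_pow_eq_one ?_)⟩
  rw [← pow_mul, ← h, pow_orderOf_eq_one]

theorem bs_central {t : G} (ht : t * t ∈ center G) (h2 : Two t) (h : t ∉ pCore 2 G) :
    ∃ y : G, y ≠ 1 ∧ Odd (orderOf y) ∧ t * y * t⁻¹ = y⁻¹ := by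
  by_contra hcon
  push Not at hcon
  refine h (CfsgLib.Invol.baer_suzuki_elem fun g => ?_)
  set s := t⁻¹ * (g * t * g⁻¹) with hs
  have hsq : (g * t * g⁻¹) * (g * t * g⁻¹) = t * t := by
    calc (g * t * g⁻¹) * (g * t * g⁻¹) = g * (t * t) * g⁻¹ := by group
      _ = t * t := by rw [mem_center_iff.1 ht g]; simp
  have hinv : t * s * t⁻¹ = s⁻¹ := cp hsq
  obtain ⟨k, hk⟩ := exists_odd_pow s
  have hs2 : Two s := ⟨k, by
    by_contra hne
    exact hcon _ hne hk (by rw [← conj_pow, hinv, inv_pow])⟩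
  have hn : t ∈ normalizer (zpowers s : Set G) := by
    refine CfsgLib.Core.mem_normalizer_of_forall_conj_mem ?_
    rintro _ ⟨n, rfl⟩
    simp only
    rw [← conj_zpow, hinv]
    exact zpow_mem (inv_mem (mem_zpowers s)) n
  refine (pg_sup hs2.pg h2 hn).to_le ((closure_le _).2 ?_)
  rintro y (rfl | rfl)
  · exact mem_sup_right (mem_zpowers _)
  · have : g * t * g⁻¹ = t * s := by rw [hs]; group
    rw [this]
    exact mul_mem (mem_sup_right (mem_zpowers _)) (mem_sup_left (mem_zpowers _))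

theorem exists_xs (P : Sylow 2 G) (h : ¬ (P : Subgroup G).Normal) : ∃ x : G, XS x := by
  by_contra hcon
  push Not at hcon
  exact h ((Cfsg.Agent.S3861.result P).1 fun x h1 h2 h3 => hcon x ⟨h1, h2, h3⟩)

/-- a subgroup without real odd elements is 2-closed -/
theorem two_closed (C : Subgroup G)
    (h : ∀ x ∈ C, ∀ u ∈ C, x ≠ 1 → Odd (orderOf x) → u * x * u⁻¹ ≠ x⁻¹) :
    ∃ R : Subgroup G, R ≤ C ∧ IsPGroup 2 R ∧ ∀ g ∈ C, Two g → g ∈ R := by
  obtain ⟨P⟩ : Nonempty (Sylow 2 C) := inferInstance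
  have hP : (P : Subgroup C).Normal := by
    by_contra hn
    obtain ⟨x, h1, h2, h3⟩ := exists_xs P hn
    obtain ⟨u, hu⟩ := isConj_iff.1 h3
    exact h x x.2 u u.2 (fun e => h1 (Subtype.ext e)) (by simpa using h2) (congrArg Subtype.val hu)
  refine ⟨(P : Subgroup C).map C.subtype, map_subtype_le _, P.isPGroup'.map _, fun g hg ⟨k, hk⟩ => ?_⟩
  have h2 : Two (⟨g, hg⟩ : C) := ⟨k, Subtype.ext (by simpa using hk)⟩
  have := P.is_maximal' (P.isPGroup'.to_sup_of_normal_left h2.pg) le_sup_left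
  exact ⟨⟨g, hg⟩, this ▸ mem_sup_right (mem_zpowers _), rfl⟩

/-- elements of odd order lift -/
theorem odd_lift (N : Subgroup G) [N.Normal] {y : G ⧸ N} (hy : Odd (orderOf y)) (_hN : IsPGroup 2 N) :
    ∃ x : G, (x : G ⧸ N) = y ∧ Odd (orderOf x) := by
  obtain ⟨x, rfl⟩ := QuotientGroup.mk_surjective y
  obtain ⟨k, hk⟩ := exists_odd_pow x
  obtain ⟨n, hn⟩ := mem_zpowers_iff.1 (mem_zpowers_two_pow hy k)
  refine ⟨(x ^ 2 ^ k) ^ n, by simpa using hn, hk.of_dvd_nat (orderOf_dvd_of_mem_zpowers ⟨n, rfl⟩)⟩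

omit [Finite G] in
theorem Wit.congr {S T : Type*} [Group S] [Group T] (e : S ≃* T) {k : ℕ} (h : Wit S k) : Wit T k := by
  obtain ⟨x, ⟨h1, h2, h3⟩, h4⟩ := h
  refine ⟨e x, ⟨by simpa using h1, by rwa [e.orderOf_eq], by simpa using e.toMonoidHom.map_isConj h3⟩, ?_⟩
  have : centralizer ({x} : Set S) = (centralizer ({e x} : Set T)).comap e.toMonoidHom := by
    ext g
    simp only [mem_centralizer_singleton_iff, mem_comap, MulEquiv.coe_toMonoidHom, ← map_mul, e.apply_eq_iff_eq]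
  rwa [this, index_comap_of_surjective _ e.surjective] at h4

omit [Finite G] in
/-- inversion modulo a central 2-element -/
theorem inv_of_mod {x u z : G} (hx : Odd (orderOf x)) (hz : z ∈ center G) (h2 : Two z)
    (h : u * x * u⁻¹ = x⁻¹ * z) : u * x * u⁻¹ = x⁻¹ := by
  have hc : Commute x⁻¹ z := mem_center_iff.1 hz x⁻¹
  have h1 : (x⁻¹ * z) ^ orderOf x = 1 := by rw [← h, conj_pow, pow_orderOf_eq_one]; simp
  rw [hc.mul_pow, inv_pow, pow_orderOf_eq_one, inv_one, one_mul] at h1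
  rw [h, h2.eq_one (hx.of_dvd_nat (orderOf_dvd_of_pow_eq_one h1)), mul_one]

theorem xs_lift (hz : IsPGroup 2 (center G)) {y : G ⧸ center G} (hy : XS y) :
    ∃ x : G, (x : G ⧸ center G) = y ∧ XS x := by
  obtain ⟨x, rfl, hx⟩ := odd_lift (center G) hy.2.1 hz
  obtain ⟨u, hu⟩ := isConj_iff.1 hy.2.2
  obtain ⟨u, rfl⟩ := QuotientGroup.mk_surjective u
  have hm : x * (u * x * u⁻¹) ∈ center G := by
    rw [← QuotientGroup.eq_one_iff]
    simp only [QuotientGroup.mk_mul, QuotientGroup.mk_inv, hu, mul_inv_cancel]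
  exact ⟨x, rfl, xs_of (u := u) (fun e => hy.1 (by rw [e]; rfl)) hx
    (inv_of_mod hx hm (two_of_mem hz hm) (by group))⟩

theorem wit_lift (hz : IsPGroup 2 (center G)) {k : ℕ} (h : Wit (G ⧸ center G) k) : Wit G k := by
  obtain ⟨y, hy, hk⟩ := h
  obtain ⟨x, rfl, hx⟩ := xs_lift hz hy
  refine ⟨x, hx, hk.trans ?_⟩
  rw [← index_comap_of_surjective _ (QuotientGroup.mk'_surjective (center G))]
  refine index_dvd_of_le fun g hg => ?_
  rw [mem_comap, mem_centralizer_singleton_iff]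
  simpa using congrArg (QuotientGroup.mk' (center G)) (mem_centralizer_singleton_iff.1 hg)

/-- a real odd element without commuting involutions -/
theorem wit_of_odd {x : G} (hx : XS x) (h : ∀ e : G, e * e = 1 → e * x = x * e → e = 1) {k : ℕ}
    (hk : 2 ^ k ∣ Nat.card G) : Wit G k := by
  refine ⟨x, hx, ?_⟩
  have hodd : ¬ 2 ∣ Nat.card (centralizer ({x} : Set G)) := by
    intro h2
    obtain ⟨e, he⟩ := exists_prime_orderOf_dvd_card' 2 h2
    have h1 : (e : G) * e = 1 := by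
      have := pow_orderOf_eq_one e
      rw [he, pow_two] at this
      exact congrArg Subtype.val this
    have := h e h1 (mem_centralizer_singleton_iff.1 e.2)
    rw [show e = 1 from Subtype.ext this, orderOf_one] at he
    omega
  rw [← (centralizer ({x} : Set G)).card_mul_index] at hk
  exact Nat.Coprime.dvd_of_dvd_mul_left ((Nat.prime_two.coprime_iff_not_dvd.2 hodd).pow_left k) hk

end CfsgLib.RealCls
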