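import Cfsg.Agent.Lib.RealCls.Qsb
import Cfsg.Agent.Lib.Comp.FStar

set_option autoImplicit false

namespace CfsgLib.RealCls

open Subgroup Cfsg

variable {G : Type*} [Group G] [Finite G] {d : ℕ}

omit [Finite G] in
theorem cmp_mem_center {L : Subgroup G} {t : L} : t ∈ center L ↔ (t : G) ∈ centralizer (L : Set G) := by
  rw [Comp.center_eq_subgroupOf_centralizer, mem_subgroupOf]

theorem cmp_step {L : Subgroup G} (hq : IsQuasisimple L) {t : G} (htL : t ∈ L)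
    (ht : t ∉ centralizer (L : Set G)) (ht2 : t * t ∈ centralizer (L : Set G)) :
    ∃ h ∈ L, t⁻¹ * (h * t * h⁻¹) ∉ centralizer (L : Set G) ∧
      (t⁻¹ * (h * t * h⁻¹)) * (t⁻¹ * (h * t * h⁻¹)) ∈ centralizer (L : Set G) := by
  obtain ⟨h, h1, h2⟩ := zstar_step hq (t := ⟨t, htL⟩) (by rwa [cmp_mem_center]) (by rwa [cmp_mem_center])
  rw [cmp_mem_center] at h1 h2
  exact ⟨h, h.2, h1, h2⟩

/-- an element of `L` outside `C(L)`, inverted in `L`, of order dividing 4, with square in `C(L)` -/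
theorem cmp_s {L : Subgroup G} (hq : IsQuasisimple L) :
    ∃ s ∈ L, ∃ t ∈ L, s ∉ centralizer (L : Set G) ∧ s * s ∈ centralizer (L : Set G) ∧
      t * s * t⁻¹ = s⁻¹ ∧ (s * s) * (s * s) = 1 := by
  obtain ⟨t, ht, ht2⟩ := qs_exists_t hq
  rw [cmp_mem_center] at ht ht2
  obtain ⟨h, hL, h1, h2⟩ := cmp_step hq t.2 ht ht2
  have e : (h * t * h⁻¹) * (h * t * h⁻¹) = (t : G) * t := by
    have := ht2 h hL
    calc (h * t * h⁻¹) * (h * t * h⁻¹) = h * ((t : G) * t) * h⁻¹ := by group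
      _ = _ := by rw [show h * ((t : G) * t) = ((t : G) * t) * h from this]; group
  have hi := cp e
  set s : G := (t : G)⁻¹ * (h * t * h⁻¹) with hs
  refine ⟨s, mul_mem (inv_mem t.2) (mul_mem (mul_mem hL t.2) (inv_mem hL)), t, t.2, h1, h2, hi, ?_⟩
  have c := h2 t t.2
  have e2 : s * s = (s * s)⁻¹ := by
    calc s * s = t * (s * s) * (t : G)⁻¹ := by rw [c]; group
      _ = (t * s * (t : G)⁻¹) * (t * s * (t : G)⁻¹) := by group
      _ = _ := by rw [hi]; group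
  nth_rewrite 1 [e2]
  exact inv_mul_cancel _

theorem cmp_xs {L : Subgroup G} (hq : IsQuasisimple L) :
    ∃ x ∈ L, ∃ u ∈ L, x ≠ 1 ∧ Odd (orderOf x) ∧ u * x * u⁻¹ = x⁻¹ := by
  obtain ⟨x, h1, h2, h3⟩ := qs_xs hq
  obtain ⟨u, hu⟩ := isConj_iff.1 h3
  refine ⟨x, x.2, u, u.2, fun e => h1 (Subtype.ext e), by rwa [orderOf_coe], ?_⟩
  exact congrArg Subtype.val hu

theorem cmp_uniq (H : Hyp G d) {K L : Subgroup G} (hK : IsComponent K) (hL : IsComponent L) : K = L := by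
  by_contra hne
  have hc := Comp.comp_le_centralizer_of_ne hK hL hne
  obtain ⟨s, hs, t, ht, h1, -, h3, h4⟩ := cmp_s (Comp.comp_qs hK)
  obtain ⟨x, hx, u, hu, x1, x2, x3⟩ := cmp_xs (Comp.comp_qs hL)
  have c1 : x * s = s * x := hc hs x hx
  have c2 : u * s = s * u := hc hs u hu
  have c3 : x⁻¹ * t = t * x⁻¹ := hc ht x⁻¹ (inv_mem hx)
  have := h5 H (s := s) (x := x) (w := t * u) (u := u) ⟨2, by rw [← h4]; norm_num [pow_succ, mul_assoc]⟩ x1 x2
    c1.symm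
    (by calc t * u * s * (t * u)⁻¹ = t * (u * s) * u⁻¹ * t⁻¹ := by group
        _ = s⁻¹ := by rw [c2, ← h3]; group)
    (by calc t * u * x * (t * u)⁻¹ = t * (u * x * u⁻¹) * t⁻¹ := by group
        _ = x⁻¹ := by rw [x3, ← c3]; group)
    c2 x3
  exact h1 (center_le_centralizer _ this)

theorem cmp_exists (hO : oddCore G = ⊥) (H : Hyp G d) {x : G} (hx : XS x) : ∃ L : Subgroup G, IsComponent L := by
  have : Fact (Nat.Prime 2) := ⟨Nat.prime_two⟩
  by_contra hn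
  push Not at hn
  have h1 := Comp.centralizer_fit_le_iff.2 (Comp.layer_eq_bot_iff.2 hn)
  rw [Comp.fit_eq_pCore_of_pPrimeCore_eq_bot (p := 2) hO] at h1
  obtain ⟨D, -, hD, hDc⟩ := l2 H hx.2.2 hx.not_center (T := ⊥) IsPGroup.of_bot bot_le
  have hT : IsPGroup 2 (D ⊔ pCore 2 G : Subgroup G) :=
    IsPGroup.to_sup_of_normal_right (pg_of_card hDc) (Core.isPGroup_pCore 2 G)
  have hn : x ∈ normalizer ((D ⊔ pCore 2 G : Subgroup G) : Set G) := by
    apply mem_normalizer_fintype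
    intro n hn
    obtain ⟨a, ha, b, hb, rfl⟩ := mem_sup_of_normal_right.1 hn
    have c : a * x = x * a := mem_centralizer_singleton_iff.1 (hD ha)
    have : x * (a * b) * x⁻¹ = a * (x * b * x⁻¹) := by rw [← mul_assoc x a, ← c]; group
    rw [this]
    exact mul_mem (mem_sup_left ha) (mem_sup_right (Normal.conj_mem inferInstance b hb x))
  have e := l6 H hx hD hDc le_sup_left hT hn
  have hx2 : x ∈ pCore 2 G := h1 (fun g hg => mem_centralizer_singleton_iff.1 (hD (e ▸ mem_sup_right hg)))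
  exact hx.1 ((two_of_mem (Core.isPGroup_pCore 2 G) hx2).eq_one hx.2.1)

theorem exists_ctx (hO : oddCore G = ⊥) (H : Hyp G d) {x : G} (hx : XS x) :
    ∃ (L : Subgroup G) (r : G), Ctx L d ∧ R1 L r := by
  have : Fact (Nat.Prime 2) := ⟨Nat.prime_two⟩
  obtain ⟨L, hL⟩ := cmp_exists hO H hx
  have hq := Comp.comp_qs hL
  have hN : L.Normal := by
    refine ⟨fun n hn g => ?_⟩
    have e := cmp_uniq H (Comp.comp_map_conj hL g) hL
    rw [← e]
    exact ⟨n, hn, rfl⟩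
  have hinv : ∀ e ∈ L, e ∈ centralizer (L : Set G) → e * e = 1 → e ∈ center G := by
    intro e _ hc he
    obtain ⟨y, hy, u, hu, y1, y2, y3⟩ := cmp_xs hq
    exact h3 H he y1 y2 (hc y hy).symm (hc u hu) y3
  obtain ⟨s, hs, -, -, h1, h2, -, h4⟩ := cmp_s hq
  obtain ⟨h, -, r1, r2⟩ := cmp_step hq hs h1 h2
  refine ⟨L, _, ⟨⟨H, hN, fun z hz hc => ?_, hinv⟩, hq⟩, r1, r2, s, hs, h, hinv _ (mul_mem hs hs) h2 h4, rfl⟩
  have := Comp.comp_inf_centralizer_le_fit hL ⟨hz, hc⟩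
  rw [Comp.fit_eq_pCore_of_pPrimeCore_eq_bot (p := 2) hO] at this
  exact two_of_mem (Core.isPGroup_pCore 2 G) this

end CfsgLib.RealCls
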