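import Mathlib
import Cfsg.Prelude.Def_Local
import Cfsg.Prelude.Def_Classical
import Cfsg.Prelude.Def_Sz
import Cfsg.Agent.Lib.Core.Cores

/-!
Real classes with the same 2-part (S3860): definitions.
-/

set_option autoImplicit false

namespace CfsgLib.RealCls

open Subgroup Cfsg

variable {G : Type*} [Group G]

/-- every real noncentral element has a centralizer of 2-part `2 ^ d` -/
def Hyp (G : Type*) [Group G] (d : ℕ) : Prop :=
  ∀ x : G, IsConj x x⁻¹ → x ∉ center G →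
    (Nat.card (centralizer ({x} : Set G))).factorization 2 = d

/-- nontrivial real element of odd order -/
def XS (x : G) : Prop := x ≠ 1 ∧ Odd (orderOf x) ∧ IsConj x x⁻¹

/-- 2-element -/
def Two (x : G) : Prop := ∃ k : ℕ, x ^ 2 ^ k = 1

/-- the extended centralizer -/
def Ext (x : G) : Subgroup G where
  carrier := {g | g * x * g⁻¹ = x ∨ g * x * g⁻¹ = x⁻¹}
  one_mem' := Or.inl (by simp)
  mul_mem' := by
    intro a b ha hb
    have e : a * b * x * (a * b)⁻¹ = a * (b * x * b⁻¹) * a⁻¹ := by group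
    have e' : a * x⁻¹ * a⁻¹ = (a * x * a⁻¹)⁻¹ := by group
    simp only [Set.mem_ofPred_eq] at ha hb ⊢
    rw [e]
    rcases hb with hb | hb <;> rw [hb]
    · exact ha
    · rw [e']
      rcases ha with ha | ha <;> rw [ha]
      · exact Or.inr rfl
      · exact Or.inl (inv_inv x)
  inv_mem' := by
    intro a ha
    simp only [Set.mem_ofPred_eq] at ha ⊢
    rcases ha with ha | ha
    · left
      calc a⁻¹ * x * a⁻¹⁻¹ = a⁻¹ * (a * x * a⁻¹) * a := by rw [ha, inv_inv]
        _ = x := by group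
    · right
      calc a⁻¹ * x * a⁻¹⁻¹ = a⁻¹ * (x⁻¹)⁻¹ * a := by simp
        _ = a⁻¹ * (a * x * a⁻¹)⁻¹ * a := by rw [ha]
        _ = x⁻¹ := by group

theorem mem_Ext {x g : G} : g ∈ Ext x ↔ g * x * g⁻¹ = x ∨ g * x * g⁻¹ = x⁻¹ := Iff.rfl

/-- the centralizer of `j` modulo the center -/
def M (j : G) : Subgroup G :=
  (centralizer ({(j : G ⧸ center G)} : Set (G ⧸ center G))).comap (QuotientGroup.mk' (center G))

theorem mem_M {j g : G} : g ∈ M j ↔ g * j * g⁻¹ * j⁻¹ ∈ center G := by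
  unfold M
  rw [mem_comap, mem_centralizer_singleton_iff, ← QuotientGroup.eq_one_iff]
  simp only [QuotientGroup.mk'_apply, QuotientGroup.mk_mul, QuotientGroup.mk_inv]
  constructor
  · intro h; rw [h]; group
  · intro h
    calc (g : G ⧸ center G) * j = ((g : G ⧸ center G) * j * (g : G ⧸ center G)⁻¹ * (j : G ⧸ center G)⁻¹) * (j * g) := by
          group
      _ = j * g := by rw [h, one_mul]

/-- central elements `z` with `z j` conjugate to `j` -/
def Zs (j : G) : Subgroup G where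
  carrier := {z | z ∈ center G ∧ ∃ g : G, g * j * g⁻¹ = z * j}
  one_mem' := ⟨one_mem _, 1, by simp⟩
  mul_mem' := by
    rintro a b ⟨ha, g, hg⟩ ⟨hb, h, hh⟩
    refine ⟨mul_mem ha hb, g * h, ?_⟩
    have h1 := mem_center_iff.1 hb g
    have h2 := mem_center_iff.1 hb a
    calc g * h * j * (g * h)⁻¹ = g * (h * j * h⁻¹) * g⁻¹ := by group
      _ = (g * b) * j * g⁻¹ := by rw [hh]; group
      _ = b * (g * j * g⁻¹) := by rw [h1]; group
      _ = (b * a) * j := by rw [hg]; group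
      _ = a * b * j := by rw [h2]
  inv_mem' := by
    rintro a ⟨ha, g, hg⟩
    refine ⟨inv_mem ha, g⁻¹, ?_⟩
    have h1 := mem_center_iff.1 (inv_mem ha) g⁻¹
    calc g⁻¹ * j * g⁻¹⁻¹ = (g⁻¹ * a⁻¹) * (a * j) * g := by group
      _ = (a⁻¹ * g⁻¹) * (g * j * g⁻¹) * g := by rw [h1, hg]
      _ = a⁻¹ * j := by group

theorem mem_Zs {j z : G} : z ∈ Zs j ↔ z ∈ center G ∧ ∃ g : G, g * j * g⁻¹ = z * j := Iff.rfl

/-- weak context: a normal subgroup whose central involutions are central in `G` -/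
structure Ctx0 (L : Subgroup G) (d : ℕ) : Prop where
  hyp : Hyp G d
  normal : L.Normal
  z2 : ∀ z ∈ L, z ∈ centralizer (L : Set G) → Two z
  inv : ∀ e ∈ L, e ∈ centralizer (L : Set G) → e * e = 1 → e ∈ center G

/-- context: moreover `L` is quasisimple -/
structure Ctx (L : Subgroup G) (d : ℕ) : Prop extends Ctx0 L d where
  qs : IsQuasisimple L

def R0 (L : Subgroup G) (j : G) : Prop :=
  j ∈ L ∧ j ∉ centralizer (L : Set G) ∧ j * j ∈ center G ∧ IsConj j j⁻¹

def R1 (L : Subgroup G) (r : G) : Prop :=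
  r ∉ centralizer (L : Set G) ∧ r * r ∈ centralizer (L : Set G) ∧
    ∃ t ∈ L, ∃ h : G, t * t ∈ center G ∧ r = t⁻¹ * (h * t * h⁻¹)

def Alpha (L : Subgroup G) (d : ℕ) : Prop :=
  ∃ (r x : G) (D : Subgroup G), R1 L r ∧ XS x ∧ D ≤ centralizer ({r} : Set G) ∧
    D ≤ centralizer ({x} : Set G) ∧ Nat.card D = 2 ^ d

/-- a real element of odd order whose class size is divisible by `2 ^ k` -/
def Wit (S : Type*) [Group S] (k : ℕ) : Prop :=
  ∃ x : S, XS x ∧ 2 ^ k ∣ (centralizer ({x} : Set S)).index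

/-- the list of Baumann's theorem S3223 -/
def BList (S : Type*) [Group S] : Prop :=
  (∃ (F : Type) (_ : Field F) (_ : Fintype F) (n : ℕ), 2 ≤ n ∧ Fintype.card F = 2 ^ n ∧
      (Nonempty (S ≃* Matrix.ProjectiveSpecialLinearGroup (Fin 2) F) ∨
        Nonempty (S ≃* Matrix.ProjectiveSpecialLinearGroup (Fin 3) F) ∨
        Nonempty (S ≃* Cfsg.PSp 2 F))) ∨
    Cfsg.Lie.IsoSuzuki S ∨
    (∃ (F : Type) (_ : Field F) (_ : Fintype F) (n : ℕ), 2 ≤ n ∧ Fintype.card F = (2 ^ n) ^ 2 ∧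
      Nonempty (S ≃* Cfsg.PSU 3 F (2 ^ n))) ∨
    (∃ (F : Type) (_ : Field F) (_ : Fintype F) (n : ℕ), 3 < Fintype.card F ∧
      (Fintype.card F = 2 ^ n + 1 ∨ Fintype.card F + 1 = 2 ^ n) ∧
      Nonempty (S ≃* Matrix.ProjectiveSpecialLinearGroup (Fin 2) F))

/-- the quasisimple case with class 2-part `2` -/
structure QB (G : Type*) [Group G] (d : ℕ) : Prop where
  hyp : Hyp G d
  qs : IsQuasisimple G
  z2 : IsPGroup 2 (center G)
  ha : (Nat.card G).factorization 2 = d + 1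

def Q0 (j : G) : Prop := j ∉ center G ∧ j * j ∈ center G ∧ IsConj j j⁻¹

end CfsgLib.RealCls
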