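import Cfsg.Agent.Lib.RealCls.Basic

set_option autoImplicit false
set_option linter.unusedSectionVars false

namespace CfsgLib.RealCls

open Subgroup Cfsg

variable {G : Type*} [Group G] [Finite G] {d : ℕ} {L : Subgroup G}

omit [Finite G] in
theorem centralizer_le_M (j : G) : centralizer ({j} : Set G) ≤ M j := fun g hg => by
  rw [mem_M, mem_centralizer_singleton_iff.1 hg]; simp

omit [Finite G] in
theorem self_mem_M (j : G) : j ∈ M j := centralizer_le_M j (mem_centralizer_singleton_iff.2 rfl)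

omit [Finite G] in
theorem phi_mem {j g : G} (hg : g ∈ M j) : g * j * g⁻¹ * j⁻¹ ∈ Zs j :=
  ⟨mem_M.1 hg, g, by simp⟩

omit [Finite G] in
theorem mem_M_of {j g z : G} (hz : z ∈ center G) (h : g * j * g⁻¹ = z * j) : g ∈ M j := by
  rw [mem_M, h]; simpa using hz

omit [Finite G] in
theorem Zs_le_center (j : G) : Zs j ≤ center G := fun _ hz => hz.1

omit [Finite G] in
theorem M_conj_cent {j g c : G} (hg : g ∈ M j) (hc : c ∈ centralizer ({j} : Set G)) :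
    g * c * g⁻¹ ∈ centralizer ({j} : Set G) := by
  rw [mem_centralizer_singleton_iff] at hc ⊢
  have h1 := mem_center_iff.1 (mem_M.1 (inv_mem hg)) c
  set z := g⁻¹ * j * g⁻¹⁻¹ * j⁻¹ with hz
  have h2 : j = g * (z * j) * g⁻¹ := by rw [hz]; group
  calc g * c * g⁻¹ * j = g * c * g⁻¹ * (g * (z * j) * g⁻¹) := by rw [← h2]
    _ = g * (c * z) * j * g⁻¹ := by group
    _ = g * z * (c * j) * g⁻¹ := by rw [h1]; group
    _ = (g * (z * j) * g⁻¹) * (g * c * g⁻¹) := by rw [hc]; group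
    _ = j * (g * c * g⁻¹) := by rw [← h2]

omit [Finite G] in
theorem M_le_normalizer (j : G) : M j ≤ normalizer (centralizer ({j} : Set G) : Set G) := fun g hg => by
  refine mem_normalizer_iff.2 fun c => ⟨M_conj_cent hg, fun h => ?_⟩
  have := M_conj_cent (inv_mem hg) h
  simpa [mul_assoc] using this

omit [Finite G] in
theorem Zs_conj_le (j g : G) : Zs j ≤ Zs (g * j * g⁻¹) := by
  rintro z ⟨hz, h, hh⟩
  refine ⟨hz, g * h * g⁻¹, ?_⟩
  calc g * h * g⁻¹ * (g * j * g⁻¹) * (g * h * g⁻¹)⁻¹ = g * (h * j * h⁻¹) * g⁻¹ := by group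
    _ = (g * z) * j * g⁻¹ := by rw [hh]; group
    _ = z * (g * j * g⁻¹) := by rw [mem_center_iff.1 hz g]; group

omit [Finite G] in
theorem Zs_conj (j g : G) : Zs (g * j * g⁻¹) = Zs j := by
  refine le_antisymm ?_ (Zs_conj_le j g)
  have := Zs_conj_le (g * j * g⁻¹) g⁻¹
  simpa [mul_assoc] using this

omit [Finite G] in
theorem conj_sq {j : G} (hj : j * j ∈ center G) (g : G) : (g * j * g⁻¹) * (g * j * g⁻¹) = j * j := by
  calc (g * j * g⁻¹) * (g * j * g⁻¹) = g * (j * j) * g⁻¹ := by group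
    _ = j * j := by rw [mem_center_iff.1 hj g]; simp

omit [Finite G] in
theorem Zs_sq {j z : G} (hj : j * j ∈ center G) (hz : z ∈ Zs j) : z * z = 1 := by
  obtain ⟨hz, g, hg⟩ := hz
  have h1 := conj_sq hj g
  rw [hg] at h1
  have h2 : z * j * (z * j) = z * z * (j * j) := by
    calc z * j * (z * j) = z * (j * z) * j := by group
      _ = z * z * (j * j) := by rw [mem_center_iff.1 hz j]; group
  rw [h2] at h1
  simpa using h1

omit [Finite G] in
theorem Zs_le {j : G} (hL : L.Normal) (hj : j ∈ L) : Zs j ≤ L := by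
  rintro z ⟨-, g, hg⟩
  have : z = g * j * g⁻¹ * j⁻¹ := by rw [hg]; simp
  exact this ▸ mul_mem (hL.conj_mem j hj g) (inv_mem hj)

omit [Finite G] in
theorem Zs_pg {j : G} (hj : j * j ∈ center G) : IsPGroup 2 (Zs j) :=
  Core.isPGroup_subgroup_iff.2 fun _ hz => two_of_sq (Zs_sq hj hz)

omit [Finite G] in
theorem R0.not_center {j : G} (h : R0 L j) : j ∉ center G := fun e => h.2.1 (center_le_centralizer _ e)

omit [Finite G] in
theorem four_of {j : G} (h1 : j * j ∈ center G) (h2 : IsConj j j⁻¹) : (j * j) * (j * j) = 1 := by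
  obtain ⟨g, hg⟩ := isConj_iff.1 h2
  have := conj_sq h1 g
  rw [hg] at this
  calc j * j * (j * j) = j * j * (j⁻¹ * j⁻¹) := by rw [this]
    _ = 1 := by group

omit [Finite G] in
theorem R0.four {j : G} (h : R0 L j) : (j * j) * (j * j) = 1 := four_of h.2.2.1 h.2.2.2

omit [Finite G] in
theorem R0.two {j : G} (h : R0 L j) : Two j := (two_of_sq h.four).of_sq

omit [Finite G] in
theorem R1.r0 (C : Ctx0 L d) {r : G} (h : R1 L r) : R0 L r := by
  obtain ⟨h1, h2, t, ht, k, ht2, hr⟩ := h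
  have hL : r ∈ L := hr ▸ mul_mem (inv_mem ht) (C.normal.conj_mem t ht k)
  have hinv : t * r * t⁻¹ = r⁻¹ := hr ▸ cp (conj_sq ht2 k)
  refine ⟨hL, h1, C.inv _ (mul_mem hL hL) h2 ?_, isConj_iff.2 ⟨t, hinv⟩⟩
  have h3 : t * (r * r) = r * r * t := mem_centralizer_iff.1 h2 t ht
  calc r * r * (r * r) = r * r * (t * (r * r) * t⁻¹) := by rw [h3]; simp
    _ = r * r * ((t * r * t⁻¹) * (t * r * t⁻¹)) := by group
    _ = 1 := by rw [hinv]; group

omit [Finite G] in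
theorem cent_conj (hL : L.Normal) {z : G} (hz : z ∈ centralizer (L : Set G)) (g : G) :
    g * z * g⁻¹ ∈ centralizer (L : Set G) := by
  have := hL
  exact (inferInstance : (centralizer (L : Set G)).Normal).conj_mem z hz g

omit [Finite G] in
theorem R1.conj (C : Ctx0 L d) {r : G} (h : R1 L r) (g : G) : R1 L (g * r * g⁻¹) := by
  obtain ⟨h1, h2, t, ht, k, ht2, hr⟩ := h
  refine ⟨fun e => h1 ?_, ?_, g * t * g⁻¹, C.normal.conj_mem t ht g, g * k * g⁻¹, ?_, by rw [hr]; group⟩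
  · have := cent_conj C.normal e g⁻¹
    simpa [mul_assoc] using this
  · have := cent_conj C.normal h2 g
    simpa [mul_assoc] using this
  · rw [conj_sq ht2]; exact ht2

omit [Finite G] in
theorem phi_mul {j b : G} (a : G) (hb : b ∈ M j) :
    a * b * j * (a * b)⁻¹ * j⁻¹ = (a * j * a⁻¹ * j⁻¹) * (b * j * b⁻¹ * j⁻¹) := by
  have h := mem_center_iff.1 (mem_M.1 hb)
  set z := b * j * b⁻¹ * j⁻¹ with hz
  calc a * b * j * (a * b)⁻¹ * j⁻¹ = a * (z * (j * a⁻¹ * j⁻¹)) := by rw [hz]; group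
    _ = (a * j * a⁻¹ * j⁻¹) * z := by rw [← h]; group

/-- the commutator map -/
def phi (j : G) (T : Subgroup G) (h : T ≤ M j) : T →* G :=
  MonoidHom.mk' (fun g => (g : G) * j * (g : G)⁻¹ * j⁻¹) fun a b => phi_mul (a : G) (h b.2)

theorem card_phi (j : G) (T : Subgroup G) (h : T ≤ M j) :
    Nat.card T = Nat.card (T ⊓ centralizer ({j} : Set G) : Subgroup G) * Nat.card (phi j T h).range := by
  have hk : (phi j T h).ker = (centralizer ({j} : Set G)).subgroupOf T := by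
    ext g
    simp only [MonoidHom.mem_ker, mem_subgroupOf, mem_centralizer_singleton_iff, phi, MonoidHom.mk'_apply,
      mul_inv_eq_iff_eq_mul, one_mul]
  rw [← index_ker, ← (phi j T h).ker.card_mul_index, hk, Core.card_subgroupOf, inf_comm]

/-- order formula -/
theorem card_le_of_values {j : G} {T A : Subgroup G} (hA : A ≤ center G)
    (h : ∀ τ ∈ T, τ * j * τ⁻¹ * j⁻¹ ∈ A) :
    Nat.card T ≤ Nat.card (T ⊓ centralizer ({j} : Set G) : Subgroup G) * Nat.card A := by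
  have hT : T ≤ M j := fun τ hτ => mem_M.2 (hA (h τ hτ))
  rw [card_phi j T hT]
  refine Nat.mul_le_mul_left _ (card_le_of_le ?_)
  rintro _ ⟨g, rfl⟩
  exact h g g.2

theorem card_M (j : G) : Nat.card (M j) = Nat.card (centralizer ({j} : Set G)) * Nat.card (Zs j) := by
  rw [card_phi j (M j) le_rfl, inf_eq_right.2 (centralizer_le_M j)]
  congr 2
  have : (phi j (M j) le_rfl).range = Zs j := by
    ext z
    constructor
    · rintro ⟨g, rfl⟩
      exact phi_mem g.2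
    · rintro ⟨hz, g, hg⟩
      exact ⟨⟨g, mem_M_of hz hg⟩, by simp [phi, hg]⟩
  rw [this]

theorem step (C : Ctx0 L d) {j : G} (hj : R0 L j) {T : Subgroup G} (hTM : T ≤ M j) (hjT : j ∈ T) {g : G}
    (hg : g ∈ normalizer (T : Set G)) (hg2 : g * g ∈ T) (hgM : g ∉ M j) :
    R1 L (j⁻¹ * (g * j * g⁻¹)) ∧ j⁻¹ * (g * j * g⁻¹) ∈ T ∧
      ∀ τ ∈ T ⊔ zpowers g, τ * (j⁻¹ * (g * j * g⁻¹)) * τ⁻¹ * (j⁻¹ * (g * j * g⁻¹))⁻¹ ∈ Zs j := by
  set k := g * j * g⁻¹ with hk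
  have hkT : k ∈ T := (mem_normalizer_iff.1 hg j).1 hjT
  have hk2 : k * k = j * j := conj_sq hj.2.2.1 g
  have hinv : j * (j⁻¹ * k) * j⁻¹ = (j⁻¹ * k)⁻¹ := cp hk2
  have hL : j⁻¹ * k ∈ L := mul_mem (inv_mem hj.1) (C.normal.conj_mem j hj.1 g)
  -- the square
  have hsq : (j⁻¹ * k) * (j⁻¹ * k) ∈ Zs j := by
    have h1 := inv_mem (phi_mem (hTM hkT))
    have h2 := mem_center_iff.1 (Zs_le_center j h1) (j * j)
    set z := (k * j * k⁻¹ * j⁻¹)⁻¹ with hz
    have : (j⁻¹ * k) * (j⁻¹ * k) = z := by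
      calc (j⁻¹ * k) * (j⁻¹ * k) = j⁻¹ * j⁻¹ * (z * (k * k)) := by rw [hz]; group
        _ = z := by rw [hk2, ← h2]; group
    exact this ▸ h1
  have hnc : j⁻¹ * k ∉ centralizer (L : Set G) := by
    intro h
    have h1 : j * (j⁻¹ * k) = (j⁻¹ * k) * j := mem_centralizer_iff.1 h j hj.1
    have h2 : (j⁻¹ * k) * (j⁻¹ * k) = 1 := by
      nth_rw 1 [show j⁻¹ * k = (j⁻¹ * k)⁻¹ by rw [← hinv, h1]; simp]
      exact inv_mul_cancel _
    have h3 := C.inv _ hL h h2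
    exact hgM (mem_M_of h3 (by rw [← h1, hk]; group))
  refine ⟨⟨hnc, center_le_centralizer _ (Zs_le_center j hsq), j, hj.1, g, hj.2.2.1, rfl⟩,
    mul_mem (inv_mem hjT) hkT, ?_⟩
  -- the subgroup of good elements
  let W : Subgroup G := (M (j⁻¹ * k) ⊓ ⊤ : Subgroup G) ⊓
    ((Zs j).comap (phi (j⁻¹ * k) (M (j⁻¹ * k)) le_rfl)).map (M (j⁻¹ * k)).subtype
  have hW : ∀ τ, τ ∈ W ↔ τ * (j⁻¹ * k) * τ⁻¹ * (j⁻¹ * k)⁻¹ ∈ Zs j := by
    intro τ
    constructor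
    · rintro ⟨-, ⟨σ, hσ, rfl⟩⟩
      exact hσ
    · intro h
      have hm : τ ∈ M (j⁻¹ * k) := mem_M.2 (Zs_le_center j h)
      exact ⟨⟨hm, trivial⟩, ⟨τ, hm⟩, h, rfl⟩
  intro τ hτ
  refine (hW τ).1 ((sup_le (fun σ hσ => (hW σ).2 ?_) (zpowers_le.2 ((hW g).2 ?_)) : T ⊔ zpowers g ≤ W) hτ)
  · have h1 := phi_mem (hTM hσ)
    have h2 := phi_mem (hTM ((mem_normalizer_iff.1 (inv_mem hg) σ).1 hσ))
    have c1 := mem_center_iff.1 (Zs_le_center j h1)
    have c2 := mem_center_iff.1 (Zs_le_center j h2)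
    set a := σ * j * σ⁻¹ * j⁻¹ with ha
    set b := g⁻¹ * σ * g⁻¹⁻¹ * j * (g⁻¹ * σ * g⁻¹⁻¹)⁻¹ * j⁻¹ with hb
    have : σ * (j⁻¹ * k) * σ⁻¹ * (j⁻¹ * k)⁻¹ = a⁻¹ * b := by
      calc σ * (j⁻¹ * k) * σ⁻¹ * (j⁻¹ * k)⁻¹ = (a * j)⁻¹ * (g * b) * (j * g⁻¹ * k⁻¹ * j) := by
            rw [ha, hb, hk]; group
        _ = (j * a)⁻¹ * (b * g) * (j * g⁻¹ * k⁻¹ * j) := by rw [c1, c2]
        _ = a⁻¹ * j⁻¹ * (b * j) := by rw [hk]; group
        _ = a⁻¹ * b := by rw [← c2]; group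
    exact this ▸ mul_mem (inv_mem h1) h2
  · have h1 := phi_mem (hTM hg2)
    have c1 := mem_center_iff.1 (Zs_le_center j h1)
    set a := g * g * j * (g * g)⁻¹ * j⁻¹ with ha
    have : g * (j⁻¹ * k) * g⁻¹ * (j⁻¹ * k)⁻¹ = a * ((j⁻¹ * k) * (j⁻¹ * k))⁻¹ := by
      calc g * (j⁻¹ * k) * g⁻¹ * (j⁻¹ * k)⁻¹ = (k⁻¹ * a) * j * (j⁻¹ * k)⁻¹ := by rw [ha, hk]; group
        _ = a * ((j⁻¹ * k) * (j⁻¹ * k))⁻¹ := by rw [c1]; group
    exact this ▸ mul_mem h1 (inv_mem hsq)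

theorem syl_M (C : Ctx0 L d) {j : G} (hj : R0 L j) {T : Subgroup G} (hT : IsPGroup 2 T) (hTM : T ≤ M j) :
    ∃ U : Subgroup G, T ≤ U ∧ U ≤ M j ∧ Nat.card U = 2 ^ d * Nat.card (Zs j) ∧ IsPGroup 2 U := by
  obtain ⟨U, h1, h2, h3⟩ := exists_syl hT hTM
  obtain ⟨n, hn⟩ := (Zs_pg hj.2.2.1).exists_card_eq
  refine ⟨U, h1, h2, ?_, pg_of_card h3⟩
  rw [h3, card_M, Nat.factorization_mul Nat.card_pos.ne' Nat.card_pos.ne', Finsupp.add_apply,
    C.hyp j hj.2.2.2 hj.not_center, hn, pow_add]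
  simp [Nat.Prime.factorization_self Nat.prime_two]

theorem claimC' (C : Ctx0 L d) {j : G} (hj : R0 L j) {T : Subgroup G} (hT : IsPGroup 2 T) (hTM : T ≤ M j) :
    ∃ P : Sylow 2 G, T ≤ P ∧ (P : Subgroup G) ≤ M j ∧ Nat.card (P : Subgroup G) = 2 ^ d * Nat.card (Zs j) := by
  obtain ⟨U, h1, h2, h3, h4⟩ := syl_M C hj hT hTM
  have hmax : ∀ g ∈ M j, Two g → g ∈ normalizer (U : Set G) → g ∈ U := by
    intro g hg hg2 hn
    obtain ⟨V, k1, -, k3, -⟩ := syl_M C hj (pg_sup h4 hg2 hn) (sup_le h2 (zpowers_le.2 hg))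
    have := Core.eq_of_le_of_card_le (le_sup_left.trans k1) (by rw [k3, h3])
    exact this ▸ k1 (mem_sup_right (mem_zpowers g))
  have hjU : j ∈ U := by
    -- `U ⊔ (Zs j ⊔ ⟨j⟩)` is a 2-subgroup of `M j`
    have hZ : Zs j ≤ U := fun z hz => hmax z (centralizer_le_M j (center_le_centralizer _ hz.1))
      (two_of_sq (Zs_sq hj.2.2.1 hz)) (center_le_normalizer _ hz.1)
    refine hmax j (self_mem_M j) hj.two (Core.mem_normalizer_of_forall_conj_mem fun u hu => ?_)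
    have : j * u * j⁻¹ = (u * j * u⁻¹ * j⁻¹)⁻¹ * u := by group
    exact this ▸ mul_mem (inv_mem (hZ (phi_mem (h2 hu)))) hu
  obtain ⟨P, hP⟩ := h4.exists_le_sylow
  by_cases he : U = P
  · exact ⟨P, he ▸ h1, he ▸ h2, he ▸ h3⟩
  exfalso
  obtain ⟨g, hgP, hgU, hgn, hg2⟩ := exists_step P.isPGroup' (lt_of_le_of_ne hP he)
  have hg := two_of_mem P.isPGroup' hgP
  obtain ⟨r1, -, r3⟩ := step C hj h2 hjU hgn hg2 fun h => hgU (hmax g h hg hgn)
  have r0 := r1.r0 C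
  have k1 := card_le_of_values (Zs_le_center j) r3
  have k2 := Nat.le_of_dvd (by positivity) (l1 C.hyp r0.2.2.2 r0.not_center
    ((pg_sup h4 hg hgn).to_inf_left) inf_le_right)
  have k3 : Nat.card U < Nat.card (U ⊔ zpowers g : Subgroup G) :=
    Core.card_lt_of_lt (lt_of_le_of_ne le_sup_left fun e => hgU (e ▸ mem_sup_right (mem_zpowers g)))
  have k4 := Nat.mul_le_mul_right (Nat.card (Zs j)) k2
  omega

theorem claimC (C : Ctx0 L d) {j : G} (hj : R0 L j) {T : Subgroup G} (hT : IsPGroup 2 T) (hTM : T ≤ M j) :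
    ∃ P : Sylow 2 G, T ≤ P ∧ (P : Subgroup G) ≤ M j := by
  obtain ⟨P, h1, h2, -⟩ := claimC' C hj hT hTM
  exact ⟨P, h1, h2⟩

theorem card_Zs (C : Ctx0 L d) {j : G} (hj : R0 L j) :
    Nat.card (Zs j) * 2 ^ d = 2 ^ (Nat.card G).factorization 2 := by
  obtain ⟨P, -, -, h⟩ := claimC' C hj IsPGroup.of_bot bot_le
  rw [← P.card_eq_multiplicity, h, mul_comm]

omit [Finite G] in
theorem ctx0_top (H : Hyp G d) (hz : IsPGroup 2 (center G)) : Ctx0 (⊤ : Subgroup G) d where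
  hyp := H
  normal := inferInstance
  z2 := fun z _ h => two_of_mem hz (by simpa [centralizer_univ] using h)
  inv := fun e _ h _ => by simpa [centralizer_univ] using h

omit [Finite G] in
theorem r0_top {j : G} : R0 (⊤ : Subgroup G) j ↔ Q0 j := by
  simp [R0, Q0, centralizer_univ]

end CfsgLib.RealCls
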