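import Cfsg.Agent.Lib.RealCls.Mj
import Cfsg.Agent.Lib.Coprime.Action
import Cfsg.Agent.Lib.Tech.SylowIn

set_option autoImplicit false

namespace CfsgLib.RealCls

open Subgroup Cfsg

variable {G : Type*} [Group G] [Finite G] {d : ℕ} {L : Subgroup G}

theorem claimA (C : Ctx0 L d) (h : ¬ Alpha L d) {r : G} (hr : R1 L r) {x u : G} (hx1 : x ≠ 1)
    (hx : Odd (orderOf x)) (hxr : x * r = r * x) (hur : u * r = r * u) : u * x * u⁻¹ ≠ x⁻¹ := by
  intro hux
  have r0 := hr.r0 C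
  obtain ⟨t, htL, k, ht2, e⟩ := hr.2.2
  have htr : t * r * t⁻¹ = r⁻¹ := e ▸ cp (by
    rw [show k * t * k⁻¹ * (k * t * k⁻¹) = k * (t * t) * k⁻¹ by group, mem_center_iff.1 ht2 k,
      mul_inv_cancel_right])
  have hne : r ≠ r⁻¹ := fun e =>
    r0.not_center (h3 C.hyp (mul_eq_one_iff_eq_inv.2 e) hx1 hx hxr.symm hur hux)
  obtain ⟨n, hn⟩ := (C.z2 _ (mul_mem htL htL) (center_le_centralizer _ ht2)).of_sq
  by_cases hQ : (⟨t, Or.inr htr⟩ : Ext r) ∈ pCore 2 (Ext r)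
  · have hK := Core.isPGroup_map_pCore (p := 2) (Ext r)
    obtain ⟨m, hm⟩ := IsPGroup.iff_card.1 hK
    have cen : ∀ {g : G}, x * g = g * x → g ∈ centralizer (zpowers x : Set G) := fun hg => by
      rintro _ ⟨i, rfl⟩
      exact (Commute.zpow_left hg i).eq
    obtain ⟨c, ⟨-, hc⟩, hcr⟩ := Coprime.exists_centralizer_conj_eq (A := zpowers x)
      (zpowers_le.2 (Core.normalizer_le_normalizer_map_pCore _ (le_normalizer
        (cent_le_Ext r (mem_centralizer_singleton_iff.2 hxr)))))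
      (by rw [hm, Nat.card_zpowers]; exact (Nat.coprime_two_right.2 hx).pow_right m)
      (Or.inl (Coprime.isSolvable_zpowers x)) ⟨_, hQ, rfl⟩ (cen hxr)
      (by rw [coe_subtype, htr]; exact inv_mem (cen hxr))
    rw [coe_subtype, htr] at hcr
    refine r0.not_center (h5 C.hyp r0.two hx1 hx hxr.symm (w := u * c) ?_ ?_ hur hux)
    · rw [show u * c * r * (u * c)⁻¹ = u * (c * r * c⁻¹) * u⁻¹ by group, hcr,
        (Commute.inv_right hur).eq, mul_inv_cancel_right]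
    · rw [show u * c * x * (u * c)⁻¹ = u * (c * x * c⁻¹) * u⁻¹ by group, ← hc x (mem_zpowers x),
        mul_inv_cancel_right, hux]
  obtain ⟨y, hy1, hy, hty⟩ := bs_central (mem_center_iff.2 fun g => Subtype.ext
    (mem_center_iff.1 ht2 g)) ⟨n, Subtype.ext hn⟩ hQ
  rw [← orderOf_coe] at hy
  have hyr : y * r = r * y := mem_centralizer_singleton_iff.1 (zpowers_le.2
    (mem_centralizer_singleton_iff.2 (by
      rw [pow_one, sq, ← mul_inv_eq_iff_eq_mul, show y.1 * y * r * (y.1 * y)⁻¹ = y * (y * r * y.1⁻¹) * y.1⁻¹ by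
        group]
      rcases y.2 with e | e
      · rw [e, e]
      · rw [e, ← conj_inv, e, inv_inv])) (mem_zpowers_two_pow hy 1))
  have hy1 : y.1 ≠ 1 := fun e => hy1 (Subtype.ext e)
  obtain ⟨D, h1, h2, h3⟩ := h4 C.hyp r0.two hy1 hy hyr.symm htr (congrArg Subtype.val hty)
  exact h ⟨r, y, D, hr, xs_of hy1 hy (congrArg Subtype.val hty), h1, h2, h3⟩

theorem claimB (C : Ctx0 L d) (h : ¬ Alpha L d) {r : G} (hr : R1 L r) {x : G} (hx : XS x) :
    x * r ≠ r * x := by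
  intro hxr
  obtain ⟨D, h1, hD, hc⟩ := l2 C.hyp hx.2.2 hx.not_center (hr.r0 C).two.pg
    (zpowers_le.2 (mem_centralizer_singleton_iff.2 hxr.symm))
  obtain ⟨j, ⟨hjD, hj⟩, hmax⟩ := Set.exists_max_image {j | j ∈ D ∧ R1 L j}
    (fun j => Nat.card (D ⊓ M j : Subgroup G)) (Set.toFinite _) ⟨r, h1 (mem_zpowers r), hr⟩
  have j0 := hj.r0 C
  have hM : D ≤ M j := inf_eq_left.1 (by_contra fun hn => by
    obtain ⟨g, hg, hgT, hgn, hg2⟩ := exists_step (pg_of_card hc) (lt_of_le_of_ne inf_le_left hn)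
    obtain ⟨e1, e2, e3⟩ := step C j0 inf_le_right ⟨hjD, self_mem_M j⟩ hgn hg2 fun e => hgT ⟨hg, e⟩
    have le : D ⊓ M j ⊔ zpowers g ≤ D ⊓ M (j⁻¹ * (g * j * g⁻¹)) :=
      le_inf (sup_le inf_le_left (zpowers_le.2 hg)) fun τ hτ => mem_M.2 (e3 τ hτ).1
    rw [eq_of_le_of_card_ge (le_sup_left.trans le) (hmax _ ⟨e2.1, e1⟩)] at hgT
    exact hgT (le (mem_sup_right (mem_zpowers g))))
  obtain ⟨R, hR, hp, hall⟩ := two_closed (centralizer ({j} : Set G)) fun a ha u hu a1 ao =>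
    claimA C h hj a1 ao (mem_centralizer_singleton_iff.1 ha) (mem_centralizer_singleton_iff.1 hu)
  have hN : M j ≤ normalizer (R : Set G) := fun g hg => Tech.mem_normalizer_of_forall fun a ha =>
    hall _ (Tech.conj_mem_of_mem_normalizer (M_le_normalizer j hg) (hR ha)) ((two_of_mem hp ha).conj g)
  have e := l6 C.hyp hx hD hc le_sup_left ((pg_of_card hc).to_sup_of_normal_right' hp (hM.trans hN))
    (Coprime.le_normalizer_sup (A := zpowers x) (zpowers_le.2 (centralizer_le_normalizer _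
      fun a ha => mem_centralizer_singleton_iff.1 (hD ha))) (zpowers_le.2 (hN (centralizer_le_M j
      (mem_centralizer_singleton_iff.2 (mem_centralizer_singleton_iff.1 (hD hjD)).symm)))) (mem_zpowers x))
  obtain ⟨D', -, h2, h3⟩ := l2 C.hyp j0.2.2.2 j0.not_center IsPGroup.of_bot bot_le
  exact h ⟨j, x, D', hj, hx, h2, fun a ha => hD (e.le (mem_sup_right
    (hall a (h2 ha) (two_of_mem (pg_of_card h3) ha)))), h3⟩

end CfsgLib.RealCls
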