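import Cfsg.Agent.Lib.RealCls.Basic
import Cfsg.Agent.Lib.ZStar.Main
import Cfsg.Agent.Lib.Comp.Quasisimple
import Cfsg.Agent.S0205

set_option autoImplicit false
set_option linter.unusedSectionVars false

namespace CfsgLib.RealCls

open Subgroup Cfsg

variable {K : Type*} [Group K] [Finite K]

theorem qs_quot (hq : IsQuasisimple K) : IsQuasisimple (K ⧸ center K) := by
  have := hq.2
  exact Comp.qs_of_isSimpleGroup (Comp.qs_quotient_center_not_isMulCommutative hq)

theorem qs_even (hq : IsQuasisimple K) : 2 ∣ Nat.card (K ⧸ center K) := by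
  by_contra h
  exact Comp.qs_not_isSolvable (qs_quot hq)
    (Cfsg.Agent.S0205.result (Nat.odd_iff.2 (Nat.two_dvd_ne_zero.1 h)))

theorem qs_exists_t (hq : IsQuasisimple K) : ∃ t : K, t ∉ center K ∧ t * t ∈ center K := by
  obtain ⟨y, hy⟩ := exists_prime_orderOf_dvd_card' 2 (qs_even hq)
  obtain ⟨t, rfl⟩ := QuotientGroup.mk_surjective y
  refine ⟨t, fun h => ?_, ?_⟩
  · rw [(QuotientGroup.eq_one_iff t).2 h, orderOf_one] at hy
    omega
  · rw [← QuotientGroup.eq_one_iff, QuotientGroup.mk_mul, ← pow_two, ← hy, pow_orderOf_eq_one]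

theorem qs_pCore_le (hq : IsQuasisimple K) : pCore 2 K ≤ center K := by
  refine (Comp.qs_normal hq _ inferInstance).resolve_left fun e => Comp.qs_not_isSolvable hq ?_
  have := (Core.pCore_eq_top_iff.1 e).isNilpotent
  infer_instance

theorem qs_not_normal (hq : IsQuasisimple K) (P : Sylow 2 K) : ¬ (P : Subgroup K).Normal := by
  intro h
  have h1 : (P : Subgroup K) ≤ center K := (Core.le_pCore P.isPGroup').trans (qs_pCore_le hq)
  exact P.not_dvd_index ((qs_even hq).trans (index_dvd_of_le h1))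

theorem qs_xs (hq : IsQuasisimple K) : ∃ x : K, XS x := by
  obtain ⟨P⟩ : Nonempty (Sylow 2 K) := inferInstance
  exact exists_xs P (qs_not_normal hq P)

theorem zstar_step (hq : IsQuasisimple K) {t : K} (ht : t ∉ center K) (ht2 : t * t ∈ center K) :
    ∃ h : K, t⁻¹ * (h * t * h⁻¹) ∉ center K ∧ (t⁻¹ * (h * t * h⁻¹)) * (t⁻¹ * (h * t * h⁻¹)) ∈ center K := by
  have := hq.2
  have h1 := ZStar.not_isolated_of_simple (Comp.qs_quotient_center_not_isMulCommutative hq) (t : K ⧸ center K)
  have hsq : (t : K ⧸ center K) * t = 1 := by rw [← QuotientGroup.mk_mul, QuotientGroup.eq_one_iff]; exact ht2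
  have ho : orderOf (t : K ⧸ center K) = 2 :=
    orderOf_eq_prime (by rw [pow_two, hsq]) fun e => ht ((QuotientGroup.eq_one_iff t).1 e)
  unfold IsIsolatedInvolution at h1
  push Not at h1
  obtain ⟨g, hg, hg'⟩ := h1 ho
  obtain ⟨h, rfl⟩ := QuotientGroup.mk_surjective g
  refine ⟨h, fun e => hg' ?_, ?_⟩
  · rw [← QuotientGroup.eq_one_iff] at e
    simp only [QuotientGroup.mk_mul, QuotientGroup.mk_inv] at e
    exact (inv_mul_eq_one.1 e).symm
  · rw [← QuotientGroup.eq_one_iff]
    simp only [QuotientGroup.mk_mul, QuotientGroup.mk_inv]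
    generalize (t : K ⧸ center K) = a at *
    generalize (h : K ⧸ center K) = k at *
    set b := k * a * k⁻¹ with hb
    have hb2 : b * b = 1 := by
      calc b * b = k * (a * a) * k⁻¹ := by rw [hb]; group
        _ = 1 := by rw [hsq]; simp
    rw [inv_eq_of_mul_eq_one_right hsq]
    calc a * b * (a * b) = a * (b * a) * b := by group
      _ = (a * a) * (b * b) := by rw [← hg.eq]; group
      _ = 1 := by rw [hsq, hb2, one_mul]

theorem qs_inverts (hq : IsQuasisimple K) {t : K} (ht : t ∉ center K) (ht2 : t * t ∈ center K) (h2 : Two t) :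
    ∃ y : K, y ≠ 1 ∧ Odd (orderOf y) ∧ t * y * t⁻¹ = y⁻¹ :=
  bs_central ht2 h2 fun h => ht (qs_pCore_le hq h)

end CfsgLib.RealCls
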