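import Cfsg.Agent.Lib.RealCls.Mj
import Cfsg.Agent.Lib.RealCls.Qsb
import Cfsg.Agent.Lib.Transfer.Cocycle

set_option autoImplicit false
set_option linter.unusedSectionVars false

namespace CfsgLib.RealCls

open Subgroup Cfsg

variable {G : Type*} [Group G] [Finite G] {d : ℕ}

theorem QB.ctx (Q : QB G d) : Ctx0 (⊤ : Subgroup G) d := ctx0_top Q.hyp Q.z2

theorem QB.card_zs (Q : QB G d) {j : G} (hj : Q0 j) : Nat.card (Zs j) = 2 := by
  have h := card_Zs Q.ctx (r0_top.2 hj)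
  rw [Q.ha, pow_succ'] at h
  exact Nat.eq_of_mul_eq_mul_right (by positivity) h

theorem QB.zs (Q : QB G d) {j : G} (hj : Q0 j) : ∃ c : G, c ≠ 1 ∧ c ∈ Zs j ∧ ∀ z ∈ Zs j, z = 1 ∨ z = c := by
  obtain ⟨c, hc, hc'⟩ := (Nat.card_eq_two_iff' (1 : Zs j)).1 (Q.card_zs hj)
  refine ⟨c, fun e => hc (Subtype.ext e), c.2, fun z hz => ?_⟩
  by_cases h : z = 1
  · exact Or.inl h
  · exact Or.inr (congrArg Subtype.val (hc' ⟨z, hz⟩ fun e => h (congrArg Subtype.val e)))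

theorem QB.zs' (Q : QB G d) {j c : G} (hj : Q0 j) (hc1 : c ≠ 1) (hc : c ∈ Zs j) {z : G} (hz : z ∈ Zs j) :
    z = 1 ∨ z = c := by
  obtain ⟨c', -, -, h⟩ := Q.zs hj
  rw [(h c hc).resolve_left hc1]
  exact h z hz

theorem QB.card_P (Q : QB G d) (P : Sylow 2 G) : Nat.card (P : Subgroup G) = 2 ^ (d + 1) := by
  rw [P.card_eq_multiplicity, Q.ha]

theorem QB.ext (Q : QB G d) {x : G} (hx : XS x) {T : Subgroup G} (hT : IsPGroup 2 T) (hle : T ≤ Ext x) :
    ∃ P : Sylow 2 G, T ≤ P ∧ (P : Subgroup G) ≤ Ext x := by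
  obtain ⟨E, h1, h2, h3, -⟩ := ext_sylow Q.hyp hx hT hle
  exact ⟨Sylow.ofCard E (by rw [h3, Q.ha]), h1, h2⟩

theorem QB.card_D (Q : QB G d) {x : G} (hx : XS x) (P : Sylow 2 G) (hP : (P : Subgroup G) ≤ Ext x) :
    Nat.card ((P : Subgroup G) ⊓ centralizer ({x} : Set G) : Subgroup G) = 2 ^ d := by
  obtain ⟨E, h1, -, h3, h4⟩ := ext_sylow Q.hyp hx P.isPGroup' hP
  rwa [← P.is_maximal' (pg_of_card h3) h1]

theorem QB.not_le (Q : QB G d) {x : G} (hr : IsConj x x⁻¹) (hc : x ∉ center G) (P : Sylow 2 G) :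
    ∃ p ∈ (P : Subgroup G), p * x ≠ x * p := by
  by_contra h
  push Not at h
  have := Nat.le_of_dvd (by positivity) (l1 Q.hyp hr hc P.isPGroup'
    fun p hp => mem_centralizer_singleton_iff.2 (h p hp))
  rw [Q.card_P, pow_succ] at this
  have h0 : 0 < 2 ^ d := by positivity
  omega

theorem QB.center_le (Q : QB G d) (P : Sylow 2 G) : center G ≤ P := Invol.le_sylow_of_normal P Q.z2

omit [Finite G] in
theorem ext_inv {x p : G} (hp : p ∈ Ext x) (h : p * x ≠ x * p) : p * x * p⁻¹ = x⁻¹ :=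
  hp.resolve_left fun e => h (mul_inv_eq_iff_eq_mul.1 e)

omit [Finite G] in
theorem Q0.conj {j : G} (hj : Q0 j) (g : G) : Q0 (g * j * g⁻¹) := by
  refine ⟨fun h => hj.1 ?_, by rw [conj_sq hj.2.1]; exact hj.2.1, real_conj hj.2.2 g⟩
  have := (inferInstance : (center G).Normal).conj_mem _ h g⁻¹
  simpa [mul_assoc] using this

omit [Finite G] in
theorem Q0.two {j : G} (hj : Q0 j) : Two j := (r0_top.2 hj).two

omit [Finite G] in
theorem Q0.inv_mem {j : G} (hj : Q0 j) : (j * j)⁻¹ ∈ Zs j := by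
  obtain ⟨g, hg⟩ := isConj_iff.1 hj.2.2
  exact ⟨Subgroup.inv_mem _ hj.2.1, g, by rw [hg]; group⟩

omit [Finite G] in
theorem mem_M_conj {j g p : G} (h : g⁻¹ * p * g ∈ M j) : p ∈ M (g * j * g⁻¹) := by
  rw [mem_M] at h ⊢
  have := (inferInstance : (center G).Normal).conj_mem _ h g
  convert this using 1
  group

theorem QB.no_index_two (Q : QB G d) (N : Subgroup (G ⧸ center G)) : N.index ≠ 2 := by
  intro h
  have := Q.qs.2
  rcases (normal_of_index_eq_two h).eq_bot_or_eq_top with e | e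
  · rw [e, index_bot] at h
    have := isCyclic_of_prime_card h
    exact Comp.qs_quotient_center_not_isMulCommutative Q.qs inferInstance
  · rw [e, index_top] at h
    omega

/-- Thompson transfer -/
theorem QB.s0 (Q : QB G d) {j : G} (hj : Q0 j) {x : G} (hx : XS x)
    (P : Sylow 2 G) (hP : (P : Subgroup G) ≤ Ext x) :
    ∃ g : G, g * j * g⁻¹ ∈ (P : Subgroup G) ∧ (g * j * g⁻¹) * x = x * (g * j * g⁻¹) ∧
      (P : Subgroup G) ≤ M (g * j * g⁻¹) := by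
  obtain ⟨P₀, -, hP₀⟩ := claimC Q.ctx (r0_top.2 hj) IsPGroup.of_bot bot_le
  set π := QuotientGroup.mk' (center G) with hπ
  set D := (P : Subgroup G) ⊓ centralizer ({x} : Set G) with hD
  have hZD : center G ≤ D := le_inf (Q.center_le P) (center_le_centralizer _)
  have cD : (D.map π).comap π = D := comap_map_eq_self (by rwa [QuotientGroup.ker_mk'])
  have cP : ((P : Subgroup G).map π).comap π = P :=
    comap_map_eq_self (by rw [QuotientGroup.ker_mk']; exact Q.center_le P)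
  obtain ⟨u, hu, hux⟩ := Q.not_le hx.2.2 hx.not_center P
  have hrel : (D.map π).relIndex ((P : Subgroup G).map π) = 2 := by
    rw [← relIndex_comap, cD, hD, inf_relIndex_left]
    exact relIndex_two hx.ne_inv hP hu (ext_inv (hP hu) hux)
  obtain ⟨t, ht1, ht2⟩ := Transfer.thompson_transfer_extremal (H := (P : Subgroup G).map π) Q.no_index_two
    (fun h => P.not_dvd_index (h.trans (index_map_dvd _ (QuotientGroup.mk'_surjective _)))) hrel
    (u := π j) (by rw [← map_mul]; exact (QuotientGroup.eq_one_iff _).2 hj.2.1)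
    (P₀.isPGroup'.map π) (map_le_iff_le_comap.2 hP₀)
  obtain ⟨t, rfl⟩ := QuotientGroup.mk'_surjective _ t
  have h1 : t⁻¹ * j * t⁻¹⁻¹ ∈ D := by
    rw [← cD, mem_comap, inv_inv, map_mul, map_mul, map_inv]; exact ht1
  have h2 : ∀ p ∈ (P₀ : Subgroup G), t⁻¹ * p * t ∈ (P : Subgroup G) := fun p hp => by
    rw [← cP, mem_comap, map_mul, map_mul, map_inv]; exact ht2 _ ⟨p, hp, rfl⟩
  refine ⟨t⁻¹, h1.1, mem_centralizer_singleton_iff.1 h1.2, fun p hp => mem_M_conj (hP₀ ?_)⟩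
  have h3 : (P₀ : Subgroup G).map (MulAut.conj t⁻¹).toMonoidHom = P := by
    refine Core.eq_of_le_of_card_le ?_ (by rw [Core.card_map_conj, Q.card_P, Q.card_P])
    rintro _ ⟨p, hp, rfl⟩
    simpa using h2 p hp
  exact Core.mem_map_conj_iff.1 (h3 ▸ hp)

theorem QB.s1 (Q : QB G d) {j c : G} (hj : Q0 j) (hc1 : c ≠ 1) (hc : c ∈ Zs j) {x : G} (hx : XS x)
    (P : Sylow 2 G) (hP : (P : Subgroup G) ≤ Ext x) :
    ∃ g : G, g * j * g⁻¹ ∈ (P : Subgroup G) ∧ (g * j * g⁻¹) * x = x * (g * j * g⁻¹) ∧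
      (∀ p ∈ (P : Subgroup G), p * x = x * p → p * (g * j * g⁻¹) = (g * j * g⁻¹) * p) ∧
      (∀ p ∈ (P : Subgroup G), p * x ≠ x * p → p * (g * j * g⁻¹) * p⁻¹ = c * (g * j * g⁻¹)) := by
  obtain ⟨g, h1, h2, h3⟩ := Q.s0 hj hx P hP
  have hk := hj.conj g
  rw [← Zs_conj j g] at hc
  refine ⟨g, h1, h2, ?_⟩
  set k := g * j * g⁻¹
  have hval : ∀ p ∈ (P : Subgroup G), p * k ≠ k * p → p * k * p⁻¹ = c * k := by
    intro p hp hne
    rcases Q.zs' hk hc1 hc (phi_mem (h3 hp)) with e | e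
    · exact absurd (mul_inv_eq_iff_eq_mul.1 (mul_inv_eq_one.1 e)) hne
    · exact mul_inv_eq_iff_eq_mul.1 e
  have hA : ∀ u ∈ (P : Subgroup G), u * k = k * u → u * x = x * u := by
    intro u hu huk
    by_contra hux
    have hinv := ext_inv (hP hu) hux
    have key : ∀ w : G, w * k * w⁻¹ = k⁻¹ → w * x * w⁻¹ = x⁻¹ → False := fun w e1 e2 =>
      hk.1 (h5 Q.hyp hk.two hx.1 hx.2.1 h2 e1 e2 huk hinv)
    rcases Q.zs' hk hc1 hc hk.inv_mem with e | e
    · refine key u ?_ hinv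
      rw [huk, inv_eq_of_mul_eq_one_right (inv_eq_one.1 e)]; simp
    · obtain ⟨p, hp, hpk⟩ := Q.not_le hk.2.2 hk.1 P
      have e1 : p * k * p⁻¹ = k⁻¹ := by rw [hval p hp hpk, ← e]; group
      by_cases hpx : p * x = x * p
      · refine key (p * u) ?_ ?_
        · calc p * u * k * (p * u)⁻¹ = p * (u * k) * u⁻¹ * p⁻¹ := by group
            _ = p * k * p⁻¹ := by rw [huk]; group
            _ = k⁻¹ := e1
        · calc p * u * x * (p * u)⁻¹ = p * (u * x * u⁻¹) * p⁻¹ := by group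
            _ = (p * x * p⁻¹)⁻¹ := by rw [hinv]; group
            _ = x⁻¹ := by rw [hpx]; group
      · exact key p e1 (ext_inv (hP hp) hpx)
  have hB : (P : Subgroup G) ⊓ centralizer ({k} : Set G) = (P : Subgroup G) ⊓ centralizer ({x} : Set G) := by
    refine Core.eq_of_le_of_card_le (fun u hu => ⟨hu.1, mem_centralizer_singleton_iff.2
      (hA u hu.1 (mem_centralizer_singleton_iff.1 hu.2))⟩) ?_
    have := card_le_of_values (Zs_le_center k) fun p hp => phi_mem (h3 hp)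
    rw [Q.card_zs hk, Q.card_P, pow_succ] at this
    rw [Q.card_D hx P hP]
    omega
  refine ⟨fun p hp hpx => ?_, fun p hp hpx => hval p hp fun e => hpx (hA p hp e)⟩
  have : p ∈ (P : Subgroup G) ⊓ centralizer ({k} : Set G) := hB ▸ ⟨hp, mem_centralizer_singleton_iff.2 hpx⟩
  exact mem_centralizer_singleton_iff.1 this.2

theorem QB.inverts (Q : QB G d) {t : G} (ht : t ∉ center G) (ht2 : t * t ∈ center G) :
    ∃ (y : G) (P : Sylow 2 G), XS y ∧ t ∈ (P : Subgroup G) ∧ (P : Subgroup G) ≤ Ext y ∧ t * y ≠ y * t := by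
  have h2 : Two t := (two_of_mem Q.z2 ht2).of_sq
  obtain ⟨y, h1, h3, h4⟩ := qs_inverts Q.qs ht ht2 h2
  have hy := xs_of h1 h3 h4
  obtain ⟨P, hP, hP'⟩ := Q.ext hy h2.pg (zpowers_le.2 (Or.inr h4))
  exact ⟨y, P, hy, hP (mem_zpowers t), hP', fun e => hy.ne_inv (by rw [← h4, e]; simp)⟩

theorem QB.zc0 (Q : QB G d) {r c : G} (hr : Q0 r) (hc1 : c ≠ 1) (hc : c ∈ Zs r) {t : G} (ht : t ∉ center G)
    (ht2 : t * t ∈ center G) : ∃ g : G, (g * r * g⁻¹) * t * (g * r * g⁻¹)⁻¹ = c * t := by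
  obtain ⟨y, P, hy, htP, hP, hty⟩ := Q.inverts ht ht2
  obtain ⟨g, -, -, -, h4⟩ := Q.s1 hr hc1 hc hy P hP
  refine ⟨g, ?_⟩
  have h5 := h4 t htP hty
  set k := g * r * g⁻¹
  have h6 : c⁻¹ = c := inv_eq_of_mul_eq_one_right (Zs_sq hr.2.1 hc)
  calc k * t * k⁻¹ = c⁻¹ * (c * k) * t * k⁻¹ := by group
    _ = c * t := by rw [← h5, h6]; group

theorem QB.zc (Q : QB G d) {r c : G} (hr : Q0 r) (hc1 : c ≠ 1) (hc : c ∈ Zs r) {t : G} (ht : t ∉ center G)
    (ht2 : t * t ∈ center G) (P : Sylow 2 G) (hP : (P : Subgroup G) ≤ M t) :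
    ∃ g : G, g * r * g⁻¹ ∈ (P : Subgroup G) ∧ (g * r * g⁻¹) * t * (g * r * g⁻¹)⁻¹ = c * t := by
  obtain ⟨g, hg⟩ := Q.zc0 hr hc1 hc ht ht2
  set k := g * r * g⁻¹ with hk
  have hkM : k ∈ M t := mem_M_of hc.1 hg
  obtain ⟨n, hn⟩ := (hr.conj g).two
  have h2 : Two (⟨k, hkM⟩ : M t) := ⟨n, Subtype.ext (by rw [SubgroupClass.coe_pow]; exact hn)⟩
  obtain ⟨m, hm⟩ := Invol.exists_conj_mem_sylow_of_isPGroup (P.subtype hP) h2.pg
  have h3 : (m : G) * k * (m : G)⁻¹ ∈ (P : Subgroup G) := hm _ (mem_zpowers _)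
  have e : (m : G) * g * r * ((m : G) * g)⁻¹ = m * k * (m : G)⁻¹ := by rw [hk]; group
  refine ⟨m * g, e ▸ h3, ?_⟩
  rw [e]
  have h4 : phi t (M t) le_rfl (m * ⟨k, hkM⟩ * m⁻¹) = c := by
    have h5 : phi t (M t) le_rfl ⟨k, hkM⟩ = c := by simp [phi, hg]
    rw [map_mul, map_mul, map_inv, h5, mem_center_iff.1 hc.1]; simp
  exact mul_inv_eq_iff_eq_mul.1 h4

theorem QB.zc' (Q : QB G d) {r c : G} (hr : Q0 r) (hc1 : c ≠ 1) (hc : c ∈ Zs r) {t : G} (ht : t ∉ center G)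
    (ht2 : t * t ∈ center G) : c ∈ Zs t := by
  obtain ⟨g, hg⟩ := Q.zc0 hr hc1 hc ht ht2
  exact ⟨hc.1, _, hg⟩

theorem exists_two_pow (u : G) : ∃ m : ℕ, Odd m ∧ Two (u ^ m) := by
  obtain ⟨k, m, hm, h⟩ := Nat.exists_eq_two_pow_mul_odd (orderOf_pos u).ne'
  exact ⟨m, hm, k, by rw [← pow_mul, mul_comm, ← h, pow_orderOf_eq_one]⟩

omit [Finite G] in
theorem inv_pow_odd {x u : G} (h : u * x * u⁻¹ = x⁻¹) {m : ℕ} (hm : Odd m) : u ^ m * x * (u ^ m)⁻¹ = x⁻¹ := by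
  obtain ⟨k, rfl⟩ := hm
  have h2 : Commute (u ^ 2) x := by
    have : u ^ 2 * x * (u ^ 2)⁻¹ = x := by
      calc u ^ 2 * x * (u ^ 2)⁻¹ = u * (u * x * u⁻¹) * u⁻¹ := by rw [pow_two]; group
        _ = u * x⁻¹ * u⁻¹ := by rw [h]
        _ = (u * x * u⁻¹)⁻¹ := by group
        _ = x := by rw [h, inv_inv]
    exact mul_inv_eq_iff_eq_mul.1 this
  have h3 := (h2.pow_left k).eq
  calc u ^ (2 * k + 1) * x * (u ^ (2 * k + 1))⁻¹ = u * ((u ^ 2) ^ k * x) * ((u ^ 2) ^ k)⁻¹ * u⁻¹ := by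
        rw [pow_succ', pow_mul]; simp only [mul_inv_rev, mul_assoc]
    _ = x⁻¹ := by rw [h3, ← h]; simp only [mul_assoc, mul_inv_cancel_left]

theorem QB.twocl (Q : QB G d) {r : G} (hr : Q0 r) (hcase : r * r = 1 ∨ ∀ e : G, e * e = 1 → e ∈ center G)
    {x u : G} (hx1 : x ≠ 1) (hx : Odd (orderOf x)) (hxr : x * r = r * x) (hur : u * r = r * u) :
    u * x * u⁻¹ ≠ x⁻¹ := by
  intro hux
  rcases hcase with h | h
  · exact hr.1 (h3 Q.hyp h hx1 hx hxr.symm hur hux)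
  obtain ⟨m, hm, hu2⟩ := exists_two_pow u
  have hvx := inv_pow_odd hux hm
  have hvr : Commute (u ^ m) r := Commute.pow_left hur m
  set v := u ^ m
  have hX := xs_of hx1 hx hux
  obtain ⟨P, hP, hP'⟩ := Q.ext hX (Invol.isPGroup_zpowers_sup hr.two.pg hu2.pg hvr.symm)
    (sup_le (zpowers_le.2 (Or.inl (by rw [← hxr]; simp))) (zpowers_le.2 (Or.inr hvx)))
  obtain ⟨c, hc1, hc, -⟩ := Q.zs hr
  obtain ⟨g, -, -, h3, h4⟩ := Q.s1 hr hc1 hc hX P hP'
  have h5 := h3 r (hP (mem_sup_left (mem_zpowers r))) hxr.symm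
  have h6 := h4 v (hP (mem_sup_right (mem_zpowers v))) fun e => hX.ne_inv (by rw [← hvx, e]; simp)
  have h7 := conj_sq hr.2.1 g
  set k := g * r * g⁻¹
  have h8 : r * k ∈ center G := h _ (by
    calc r * k * (r * k) = r * (k * r) * k := by group
      _ = (r * r) * (k * k) := by rw [← h5]; group
      _ = 1 := by rw [h7, four_of hr.2.1 hr.2.2])
  have h9 : Commute v k := by
    have := hvr.inv_right.mul_right (show Commute v (r * k) from mem_center_iff.1 h8 v)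
    simpa using this
  rw [h9.eq] at h6
  exact hc1 (by simpa using h6.symm)

end CfsgLib.RealCls
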