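import Cfsg.Agent.Lib.RealCls.QS1
import Cfsg.Agent.Lib.Core.Fitting

set_option autoImplicit false
set_option linter.unusedSectionVars false

namespace CfsgLib.RealCls

open Subgroup Cfsg

variable {G : Type*} [Group G] [Finite G] {d : ℕ}

/-- a central involution modulo the center inside a normal subgroup of a 2-group -/
theorem exists_central_mod {P B : Subgroup G} (hP : IsPGroup 2 P) (hBP : B ≤ P) (hZ : center G ≤ B)
    (hn : ∀ p ∈ P, ∀ b ∈ B, p * b * p⁻¹ ∈ B) (hB : ¬ B ≤ center G) :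
    ∃ t ∈ B, t ∉ center G ∧ t * t ∈ center G ∧ P ≤ M t := by
  set π := QuotientGroup.mk' (center G) with hπ
  have cB : (B.map π).comap π = B := comap_map_eq_self (by rwa [QuotientGroup.ker_mk'])
  have h1 := Core.inf_centralizer_ne_bot_of_isPGroup ((hP.to_le hBP).map π) (hP.map π) (by
    rintro _ ⟨p, hp, rfl⟩
    refine Core.mem_normalizer_of_forall_conj_mem ?_
    rintro _ ⟨b, hb, rfl⟩
    exact ⟨_, hn p hp b hb, by simp⟩) (fun e => hB (by rwa [Subgroup.map_eq_bot_iff, QuotientGroup.ker_mk'] at e))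
  set W := B.map π ⊓ centralizer ((P.map π : Subgroup _) : Set (G ⧸ center G))
  have hW : IsPGroup 2 W := ((hP.to_le hBP).map π).to_inf_left
  obtain ⟨v, hv, hv1, -, hv2⟩ := exists_step hW (bot_lt_iff_ne_bot.2 h1)
  obtain ⟨⟨t, ht, rfl⟩, hv'⟩ := hv
  refine ⟨t, ht, fun e => hv1 (mem_bot.2 ((QuotientGroup.eq_one_iff t).2 e)), ?_, fun p hp => ?_⟩
  · rw [← map_mul] at hv2
    exact (QuotientGroup.eq_one_iff _).1 (mem_bot.1 hv2)
  · exact mem_centralizer_singleton_iff.2 (mem_centralizer_iff.1 hv' _ ⟨p, hp, rfl⟩)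

omit [Finite G] in
theorem exists_four {j : G} (h : Two j) (h2 : j * j ≠ 1) :
    ∃ k : ℕ, j ^ k * j ^ k ≠ 1 ∧ (j ^ k * j ^ k) * (j ^ k * j ^ k) = 1 := by
  obtain ⟨n, hn⟩ := h
  induction n generalizing j with
  | zero => exact absurd (by rw [pow_zero, pow_one] at hn; rw [hn, mul_one]) h2
  | succ n ih =>
    by_cases h4 : (j * j) * (j * j) = 1
    · exact ⟨1, by simpa using h2, by simpa using h4⟩
    · obtain ⟨k, hk⟩ := ih h4 (by rw [← pow_two, ← pow_mul, ← pow_succ', hn])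
      exact ⟨2 * k, by rwa [pow_mul, pow_two]⟩

/-- the configuration -/
structure Cfg (d : ℕ) (P : Sylow 2 G) (s r c y : G) : Prop where
  Q : QB G d
  hs : Q0 s
  hr : Q0 r
  sq : r * r = s * s
  zs : Zs r = Zs s
  case : r * r = 1 ∨ ∀ e : G, e * e = 1 → e ∈ center G
  c1 : c ≠ 1
  hc : c ∈ Zs r
  hy : XS y
  hP : (P : Subgroup G) ≤ Ext y
  sP : s ∈ (P : Subgroup G)
  sy : s * y ≠ y * s
  rP : r ∈ (P : Subgroup G)
  ry : r * y = y * r
  h3 : ∀ p ∈ (P : Subgroup G), p * y = y * p → p * r = r * p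
  h4 : ∀ p ∈ (P : Subgroup G), p * y ≠ y * p → p * r * p⁻¹ = c * r

theorem QB.cfg (Q : QB G d) : ∃ (P : Sylow 2 G) (s r c y : G), Cfg d P s r c y := by
  obtain ⟨s, hs, hcase⟩ : ∃ s : G, Q0 s ∧ (s * s = 1 ∨ ∀ e : G, e * e = 1 → e ∈ center G) := by
    by_cases h : ∀ e : G, e * e = 1 → e ∈ center G
    · obtain ⟨t, h1, h2⟩ := qs_exists_t Q.qs
      obtain ⟨k, h3, h4⟩ := zstar_step Q.qs h1 h2
      exact ⟨_, ⟨h3, h4, isConj_iff.2 ⟨t, cp (conj_sq h2 k)⟩⟩, Or.inr h⟩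
    · push Not at h
      obtain ⟨e, h1, h2⟩ := h
      exact ⟨e, ⟨h2, h1 ▸ one_mem _, by rw [inv_eq_of_mul_eq_one_right h1]⟩, Or.inl h1⟩
  obtain ⟨c, c1, hc, -⟩ := Q.zs hs
  obtain ⟨y, P, hy, sP, hP, sy⟩ := Q.inverts hs.1 hs.2.1
  obtain ⟨g, h1, h2, h3, h4⟩ := Q.s1 hs c1 hc hy P hP
  exact ⟨P, s, g * s * g⁻¹, c, y, Q, hs, hs.conj g, conj_sq hs.2.1 g, Zs_conj s g,
    by rwa [conj_sq hs.2.1 g], c1, by rwa [Zs_conj], hy, hP, sP, sy, h1, h2, h3, h4⟩

namespace Cfg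

variable {P : Sylow 2 G} {s r c y : G}

theorem sy' (C : Cfg d P s r c y) : s * y * s⁻¹ = y⁻¹ := ext_inv (C.hP C.sP) C.sy

theorem cc (C : Cfg d P s r c y) : c * c = 1 := Zs_sq C.hr.2.1 C.hc

theorem cz (C : Cfg d P s r c y) (g : G) : g * c = c * g := mem_center_iff.1 C.hc.1 g

theorem sr (C : Cfg d P s r c y) : s * r * s⁻¹ = c * r := C.h4 s C.sP C.sy

theorem inv_central (C : Cfg d P s r c y) {e : G} (he : e * e = 1) (hey : e * y = y * e)
    (hse : s * e = e * s) : e ∈ center G :=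
  RealCls.h3 C.Q.hyp he C.hy.1 C.hy.2.1 hey hse C.sy'

theorem mul_comm_y (C : Cfg d P s r c y) {p : G} (hp : p ∈ (P : Subgroup G)) (h : p * y ≠ y * p) :
    s * p * y = y * (s * p) := by
  have h1 := ext_inv (C.hP hp) h
  refine mul_inv_eq_iff_eq_mul.1 ?_
  calc s * p * y * (s * p)⁻¹ = s * (p * y * p⁻¹) * s⁻¹ := by group
    _ = (s * y * s⁻¹)⁻¹ := by rw [h1]; group
    _ = y := by rw [C.sy', inv_inv]

theorem conj_comm_y (C : Cfg d P s r c y) {g : G} (h : g * y = y * g) :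
    s * g * s⁻¹ * y = y * (s * g * s⁻¹) := by
  have h1 : Commute g y⁻¹ := Commute.inv_right h
  have h2 : y = s * y⁻¹ * s⁻¹ := by
    calc y = (s * y * s⁻¹)⁻¹ := by rw [C.sy', inv_inv]
      _ = s * y⁻¹ * s⁻¹ := by group
  calc s * g * s⁻¹ * y = s * g * s⁻¹ * (s * y⁻¹ * s⁻¹) := by rw [← h2]
    _ = s * (g * y⁻¹) * s⁻¹ := by group
    _ = (s * y⁻¹ * s⁻¹) * (s * g * s⁻¹) := by rw [h1.eq]; group
    _ = y * (s * g * s⁻¹) := by rw [← h2]

theorem uniq (C : Cfg d P s r c y) {D : Subgroup G} (hD : D ≤ centralizer ({r} : Set G))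
    (hc : Nat.card D = 2 ^ d) : D = (P : Subgroup G) ⊓ centralizer ({y} : Set G) := by
  obtain ⟨R, h1, h2, h3⟩ := two_closed (centralizer ({r} : Set G)) fun x hx u hu hx1 hx2 =>
    C.Q.twocl C.hr C.case hx1 hx2 (mem_centralizer_singleton_iff.1 hx) (mem_centralizer_singleton_iff.1 hu)
  have key : ∀ E : Subgroup G, E ≤ centralizer ({r} : Set G) → Nat.card E = 2 ^ d → R = E := fun E k1 k2 =>
    l1' C.Q.hyp C.hr.2.2 C.hr.1 k2 (fun g hg => h3 g (k1 hg) (two_of_mem (pg_of_card k2) hg)) h2 h1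
  rw [← key D hD hc]
  exact key _ (fun p hp => mem_centralizer_singleton_iff.2 (C.h3 p hp.1 (mem_centralizer_singleton_iff.1 hp.2)))
    (C.Q.card_D C.hy P C.hP)

/-- elements behaving like `r` -/
theorem like_r (C : Cfg d P s r c y) {e : G} (heP : e ∈ (P : Subgroup G)) (hey : e * y = y * e)
    (he : e * e = r * r) (hse : s * e * s⁻¹ = c * e) : e * r ∈ center G := by
  have h1 := C.h3 e heP hey
  refine C.inv_central ?_ (Commute.mul_left hey C.ry).eq (mul_inv_eq_iff_eq_mul.1 ?_)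
  · calc e * r * (e * r) = e * (r * e) * r := by group
      _ = (e * e) * (r * r) := by rw [← h1]; group
      _ = 1 := by rw [he, four_of C.hr.2.1 C.hr.2.2]
  · calc s * (e * r) * s⁻¹ = (s * e * s⁻¹) * (s * r * s⁻¹) := by group
      _ = c * (e * c) * r := by rw [hse, C.sr]; group
      _ = (c * c) * (e * r) := by rw [C.cz e]; group
      _ = e * r := by rw [C.cc, one_mul]

theorem kl0 (C : Cfg d P s r c y) {i : G} (hiP : i ∈ (P : Subgroup G)) (hiy : i * y = y * i)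
    (hsi : s * i * s⁻¹ = i⁻¹) (h2 : i * i ≠ 1) (h4 : (i * i) * (i * i) = 1) : i * r ∈ center G := by
  have hi2 : i * i ∈ center G := by
    refine C.inv_central h4 (Commute.mul_left hiy hiy).eq (mul_inv_eq_iff_eq_mul.1 ?_)
    calc s * (i * i) * s⁻¹ = (s * i * s⁻¹) * (s * i * s⁻¹) := by group
      _ = (i * i)⁻¹ := by rw [hsi]; group
      _ = i * i := inv_eq_of_mul_eq_one_right h4
  have hi : Q0 i := by
    refine ⟨fun e => h2 ?_, hi2, isConj_iff.2 ⟨s, hsi⟩⟩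
    rw [mem_center_iff.1 e s, mul_inv_cancel_right] at hsi
    nth_rw 1 [hsi]; simp
  have hci : c ∈ Zs i := C.Q.zc' C.hr C.c1 C.hc hi.1 hi2
  have hic : (i * i)⁻¹ = c :=
    (C.Q.zs' hi C.c1 hci hi.inv_mem).resolve_left fun e => h2 (inv_eq_one.1 e)
  have hic' : i * i = c := by rw [← hic, inv_eq_of_mul_eq_one_right h4]
  have hsi' : s * i * s⁻¹ = c * i := by rw [hsi, ← hic]; group
  rcases C.Q.zs' C.hr C.c1 C.hc C.hr.inv_mem with h | h
  swap
  · exact C.like_r hiP hiy (inv_injective (hic.trans h.symm)) hsi'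
  have hr1 : r * r = 1 := inv_eq_one.1 h
  obtain ⟨g, k1, k2, k3, k4⟩ := C.Q.s1 hi C.c1 hci C.hy P C.hP
  have k5 : (g * i * g⁻¹) * (g * i * g⁻¹) = c := (conj_sq hi2 g).trans hic'
  set k := g * i * g⁻¹ with hk
  have hrk : r * k = k * r := k3 r C.rP C.ry
  have hζP : ∀ p ∈ (P : Subgroup G), p * (r * k) * p⁻¹ = r * k := by
    intro p hp
    by_cases hpy : p * y = y * p
    · rw [(Commute.mul_right (C.h3 p hp hpy) (k3 p hp hpy)).eq]; simp
    · calc p * (r * k) * p⁻¹ = (p * r * p⁻¹) * (p * k * p⁻¹) := by group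
        _ = c * (r * c) * k := by rw [C.h4 p hp hpy, k4 p hp hpy]; group
        _ = (c * c) * (r * k) := by rw [C.cz r]; group
        _ = r * k := by rw [C.cc, one_mul]
  have hζ2 : (r * k) * (r * k) = c := by
    calc r * k * (r * k) = r * (k * r) * k := by group
      _ = (r * r) * (k * k) := by rw [← hrk]; group
      _ = c := by rw [hr1, k5, one_mul]
  have hζ : r * k ∈ center G := by
    by_contra hn
    obtain ⟨g', m1, m2⟩ := C.Q.zc C.hr C.c1 C.hc hn (hζ2 ▸ C.hc.1) P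
      fun p hp => mem_M_of (one_mem _) (by rw [hζP p hp, one_mul])
    rw [hζP _ m1] at m2
    exact C.c1 (by simpa using m2.symm)
  set ζ := r * k with hζ'
  have z1 := mem_center_iff.1 hζ
  have hζP' : ζ ∈ (P : Subgroup G) := mul_mem C.rP k1
  have he := C.like_r (e := i * ζ) (mul_mem hiP hζP') (Commute.mul_left hiy (z1 y).symm).eq (by
    calc i * ζ * (i * ζ) = i * (ζ * i) * ζ := by group
      _ = i * (i * ζ) * ζ := by rw [← z1 i]
      _ = (i * i) * (ζ * ζ) := by group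
      _ = r * r := by rw [hic', hζ2, C.cc, hr1]) (by
    calc s * (i * ζ) * s⁻¹ = (s * i * s⁻¹) * (s * ζ * s⁻¹) := by group
      _ = c * (i * ζ) := by rw [hsi', z1 s]; group)
  have : i * r = (i * ζ * r) * ζ⁻¹ := by rw [mul_assoc i, ← z1 r]; group
  exact this ▸ mul_mem he (inv_mem hζ)

theorem kl (C : Cfg d P s r c y) {j : G} (hjP : j ∈ (P : Subgroup G)) (hjy : j * y = y * j)
    (hsj : s * j * s⁻¹ = j⁻¹) {p : G} (hp : p ∈ (P : Subgroup G)) (hpy : p * y = y * p) : p * j = j * p := by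
  by_cases h2 : j * j = 1
  · refine mem_center_iff.1 (C.inv_central h2 hjy (mul_inv_eq_iff_eq_mul.1 ?_)) p
    rw [hsj, inv_eq_of_mul_eq_one_right h2]
  have hj := two_of_mem P.isPGroup' hjP
  obtain ⟨k, k1, k2⟩ := exists_four hj h2
  have h3 := C.kl0 (pow_mem hjP k) (Commute.pow_left hjy k).eq (by rw [← conj_pow, hsj, inv_pow]) k1 k2
  obtain ⟨D, d1, -, d3⟩ := RealCls.h4 C.Q.hyp hj C.hy.1 C.hy.2.1 hjy hsj C.sy'
  have h5 := C.uniq (D := D) (fun g hg => by
    have a1 : Commute g j := mem_centralizer_singleton_iff.1 (d1 hg)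
    have a2 : Commute g (j ^ k * r) := mem_center_iff.1 h3 g
    have := (a1.pow_right k).inv_right.mul_right a2
    rw [inv_mul_cancel_left] at this
    exact mem_centralizer_singleton_iff.2 this) d3
  exact mem_centralizer_singleton_iff.1 (d1 (h5 ▸ ⟨hp, mem_centralizer_singleton_iff.2 hpy⟩))

theorem th_inv (C : Cfg d P s r c y) (g : G) :
    s * (s * g * s⁻¹ * g⁻¹) * s⁻¹ = (s * g * s⁻¹ * g⁻¹)⁻¹ := by
  calc s * (s * g * s⁻¹ * g⁻¹) * s⁻¹ = (s * s * g) * (s⁻¹ * g⁻¹ * s⁻¹) := by group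
    _ = (s * g * s⁻¹ * g⁻¹)⁻¹ := by rw [← mem_center_iff.1 C.hs.2.1 g]; group

theorem th_y (C : Cfg d P s r c y) {g : G} (hgy : g * y = y * g) :
    (s * g * s⁻¹ * g⁻¹) * y = y * (s * g * s⁻¹ * g⁻¹) :=
  (Commute.mul_left (C.conj_comm_y hgy) (Commute.inv_left hgy)).eq

theorem th (C : Cfg d P s r c y) {g : G} (hg : g ∈ (P : Subgroup G)) (hgy : g * y = y * g)
    {p : G} (hp : p ∈ (P : Subgroup G)) (hpy : p * y = y * p) :
    p * (s * g * s⁻¹ * g⁻¹) = (s * g * s⁻¹ * g⁻¹) * p :=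
  C.kl (mul_mem (mul_mem (mul_mem C.sP hg) (inv_mem C.sP)) (inv_mem hg)) (C.th_y hgy) (C.th_inv g) hp hpy

/-- values of `θ` on elements with central square -/
theorem th_val (C : Cfg d P s r c y) {g : G} (hg : g ∈ (P : Subgroup G)) (hgy : g * y = y * g)
    (h2 : g * g ∈ center G) : s * g = g * s ∨ s * g * s⁻¹ = c * g := by
  have h1 := C.th hg hgy hg hgy
  have h3 := C.th_inv g
  have h4 := C.th_y hgy
  have h5 := conj_sq h2 s
  have e : s * g * s⁻¹ = (s * g * s⁻¹ * g⁻¹) * g := by group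
  have e' : g * s * g⁻¹ = (s * g * s⁻¹ * g⁻¹)⁻¹ * s := by group
  set θ := s * g * s⁻¹ * g⁻¹
  have h6 : θ * θ = 1 := by
    rw [e] at h5
    have : θ * θ * (g * g) = g * g := by
      calc θ * θ * (g * g) = θ * (θ * g) * g := by group
        _ = θ * (g * θ) * g := by rw [h1]
        _ = θ * g * (θ * g) := by group
        _ = g * g := h5
    simpa using this
  have h7 : θ⁻¹ = θ := inv_eq_of_mul_eq_one_right h6
  have h8 : θ ∈ center G := C.inv_central h6 h4 (mul_inv_eq_iff_eq_mul.1 (h3.trans h7))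
  have h9 : θ ∈ Zs r := C.zs ▸ ⟨h8, g, by rw [e', h7]⟩
  rcases C.Q.zs' C.hr C.c1 C.hc h9 with h | h
  · left
    rw [h, one_mul] at e
    exact mul_inv_eq_iff_eq_mul.1 e
  · exact Or.inr (h ▸ e)

theorem r0 (C : Cfg d P s r c y) {g : G} (hg : g ∈ (P : Subgroup G)) (hgy : g * y = y * g)
    (hsg : s * g = g * s) : g ∈ center G := by
  by_contra hn
  set B := ((P : Subgroup G) ⊓ centralizer ({y} : Set G)) ⊓ centralizer ({s} : Set G) with hB
  have mB : ∀ b, b ∈ B ↔ b ∈ (P : Subgroup G) ∧ b * y = y * b ∧ b * s = s * b := fun b => by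
    simp only [hB, mem_inf, mem_centralizer_singleton_iff, and_assoc]
  have hR : ∀ p ∈ (P : Subgroup G), p * y = y * p → ∀ b ∈ B, p * b * p⁻¹ ∈ B := by
    intro p hp hpy b hb
    obtain ⟨b1, b2, b3⟩ := (mB b).1 hb
    have a1 : p * b * p⁻¹ ∈ (P : Subgroup G) := mul_mem (mul_mem hp b1) (inv_mem hp)
    have a2 : p * b * p⁻¹ * y = y * (p * b * p⁻¹) :=
      (Commute.mul_left (Commute.mul_left hpy b2) (Commute.inv_left hpy)).eq
    refine (mB _).2 ⟨a1, a2, (mul_inv_eq_iff_eq_mul.1 ?_).symm⟩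
    have a3 := C.th hp hpy a1 a2
    calc s * (p * b * p⁻¹) * s⁻¹ = (s * p * s⁻¹ * p⁻¹) * p * (s * b * s⁻¹) * p⁻¹ * (s * p * s⁻¹ * p⁻¹)⁻¹ := by
          group
      _ = ((s * p * s⁻¹ * p⁻¹) * (p * b * p⁻¹)) * (s * p * s⁻¹ * p⁻¹)⁻¹ := by rw [← b3]; group
      _ = p * b * p⁻¹ := by rw [← a3]; group
  obtain ⟨t, ht, ht1, ht2, htM⟩ := exists_central_mod (B := B) P.isPGroup' (inf_le_left.trans inf_le_left)
    (le_inf (le_inf (C.Q.center_le P) (center_le_centralizer _)) (center_le_centralizer _)) (by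
      intro p hp b hb
      by_cases hpy : p * y = y * p
      · exact hR p hp hpy b hb
      · have a1 := hR _ (mul_mem C.sP hp) (C.mul_comm_y hp hpy) b hb
        have a2 := ((mB _).1 a1).2.2
        have : p * b * p⁻¹ = s * p * b * (s * p)⁻¹ := by
          calc p * b * p⁻¹ = s⁻¹ * (s * p * b * (s * p)⁻¹ * s) := by group
            _ = s * p * b * (s * p)⁻¹ := by rw [a2]; group
        exact this ▸ a1) (fun h => hn (h ((mB g).2 ⟨hg, hgy, hsg.symm⟩)))
  obtain ⟨t1, t2, t3⟩ := (mB t).1 ht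
  obtain ⟨m, m1, m2⟩ := C.Q.zc C.hr C.c1 C.hc ht1 ht2 P htM
  have m3 := conj_sq C.hr.2.1 m
  have m4 := C.hr.conj m
  set k := m * r * m⁻¹
  have fin : k * t ≠ t * k := fun e => C.c1 (by rw [e] at m2; simpa using m2.symm)
  apply fin
  by_cases hky : k * y = y * k
  · have hkr : k * r ∈ center G := by
      rcases C.th_val m1 hky m4.2.1 with h | h
      · rcases C.case with h' | h'
        · exact absurd (C.inv_central (m3.trans h') hky h) m4.1
        · refine h' _ ?_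
          calc k * r * (k * r) = k * (r * k) * r := by group
            _ = (k * k) * (r * r) := by rw [← C.h3 k m1 hky]; group
            _ = 1 := by rw [m3, four_of C.hr.2.1 C.hr.2.2]
      · exact C.like_r m1 hky m3 h
    have a1 : Commute t (k * r) := mem_center_iff.1 hkr t
    have a2 : Commute t r := C.h3 t t1 t2
    have := a1.mul_right a2.inv_right
    rw [mul_inv_cancel_right] at this
    exact this.symm.eq
  · have a0 : s⁻¹ * k = (s * s)⁻¹ * (s * k) := by group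
    have a1 : s⁻¹ * k * y = y * (s⁻¹ * k) := by
      rw [a0]
      exact (Commute.mul_left (show Commute y (s * s)⁻¹ from mem_center_iff.1 (inv_mem C.hs.2.1) y).symm
        (C.mul_comm_y m1 hky)).eq
    have a2 : Commute t (s⁻¹ * k) := C.kl (mul_mem (inv_mem C.sP) m1) a1 (cp (m3.trans C.sq)) t1 t2
    have := (show Commute t s from t3).mul_right a2
    rw [mul_inv_cancel_left] at this
    exact this.symm.eq

end Cfg

/-- the structure of a Sylow 2-subgroup modulo the center -/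
theorem QB.struct (Q : QB G d) : ∃ (P : Sylow 2 G) (R : Subgroup G) (s r : G), R ≤ P ∧ center G ≤ R ∧
    s ∈ (P : Subgroup G) ∧ s ∉ R ∧ s * s ∈ center G ∧ (∀ p ∈ (P : Subgroup G), p ∈ R ∨ s * p ∈ R) ∧
    r ∈ R ∧ r ∉ center G ∧ (∀ g ∈ R, s * g * s⁻¹ * g ∈ center G) ∧
    (∀ g ∈ R, g * g ∈ center G → g ∈ center G ∨ g * r ∈ center G) := by
  obtain ⟨P, s, r, c, y, C⟩ := Q.cfg
  refine ⟨P, (P : Subgroup G) ⊓ centralizer ({y} : Set G), s, r, inf_le_left,
    le_inf (Q.center_le P) (center_le_centralizer _), C.sP,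
    fun h => C.sy (mem_centralizer_singleton_iff.1 h.2), C.hs.2.1, fun p hp => ?_,
    ⟨C.rP, mem_centralizer_singleton_iff.2 C.ry⟩, C.hr.1, fun g hg => ?_, fun g hg h2 => ?_⟩
  · by_cases h : p * y = y * p
    · exact Or.inl ⟨hp, mem_centralizer_singleton_iff.2 h⟩
    · exact Or.inr ⟨mul_mem C.sP hp, mem_centralizer_singleton_iff.2 (C.mul_comm_y hp h)⟩
  · have hgy := mem_centralizer_singleton_iff.1 hg.2
    refine C.r0 (mul_mem (mul_mem (mul_mem C.sP hg.1) (inv_mem C.sP)) hg.1)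
      (Commute.mul_left (C.conj_comm_y hgy) hgy).eq (mul_inv_eq_iff_eq_mul.1 ?_)
    have h1 := C.th hg.1 hgy hg.1 hgy
    calc s * (s * g * s⁻¹ * g) * s⁻¹ = (s * s * g) * (s⁻¹ * g * s⁻¹) := by group
      _ = (g * (s * g * s⁻¹ * g⁻¹)) * g := by rw [← mem_center_iff.1 C.hs.2.1 g]; group
      _ = s * g * s⁻¹ * g := by rw [h1]; group
  · have hgy := mem_centralizer_singleton_iff.1 hg.2
    rcases C.th_val hg.1 hgy h2 with h | h
    · exact Or.inl (C.r0 hg.1 hgy h)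
    · refine Or.inr (C.r0 (mul_mem hg.1 C.rP) (Commute.mul_left hgy C.ry).eq (mul_inv_eq_iff_eq_mul.1 ?_))
      calc s * (g * r) * s⁻¹ = (s * g * s⁻¹) * (s * r * s⁻¹) := by group
        _ = c * (g * c) * r := by rw [h, C.sr]; group
        _ = (c * c) * (g * r) := by rw [C.cz g]; group
        _ = g * r := by rw [C.cc, one_mul]

end CfsgLib.RealCls
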