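import Cfsg.Agent.Lib.RealCls.Defs
import Cfsg.Agent.Lib.Tech.SylowIn
import Cfsg.Agent.S3861
import Cfsg.Agent.S3863

set_option autoImplicit false

namespace CfsgLib.RealCls

open Subgroup Cfsg

universe u

/-- conjugation combined with inversion -/
@[reducible] def redAct (G : Type*) [Group G] : MulAction (G × ℤˣ) G where
  smul a y := a.1 * y ^ (a.2 : ℤ) * a.1⁻¹
  one_smul y := show 1 * y ^ (1 : ℤ) * 1⁻¹ = y by simp
  mul_smul a b y := show a.1 * b.1 * y ^ ((a.2 * b.2 : ℤˣ) : ℤ) * (a.1 * b.1)⁻¹ =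
      a.1 * (b.1 * y ^ (b.2 : ℤ) * b.1⁻¹) ^ (a.2 : ℤ) * a.1⁻¹ by
    rw [conj_zpow, ← zpow_mul, Units.val_mul, mul_comm (a.2 : ℤ)]; group

theorem red_le {a b c : ℕ} (hb : b ≠ 0) (hc : ¬ 2 ∣ c) (h : a ∣ b * c) :
    a.factorization 2 ≤ b.factorization 2 := by
  have h0 : c ≠ 0 := by rintro rfl; simp at hc
  have h1 := (Nat.factorization_le_iff_dvd (ne_zero_of_dvd_ne_zero (mul_ne_zero hb h0) h)
    (mul_ne_zero hb h0)).2 h 2
  rwa [Nat.factorization_mul hb h0, Finsupp.add_apply, Nat.factorization_eq_zero_of_not_dvd hc,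
    add_zero] at h1

theorem hyp_quot {G : Type*} [Group G] [Finite G] {d : ℕ} (H : Hyp G d) (N : Subgroup G) [N.Normal]
    (hN : Odd (Nat.card N)) : Hyp (G ⧸ N) d := by
  intro h hr hc
  let _ := redAct G
  let _ := redAct (G ⧸ N)
  let π := QuotientGroup.mk' N
  let Γ := (MulAction.stabilizer ((G ⧸ N) × ℤˣ) h).comap (π.prodMap (MonoidHom.id ℤˣ))
  have mem : ∀ a : G × ℤˣ, a ∈ Γ ↔ π a.1 * h ^ (a.2 : ℤ) * (π a.1)⁻¹ = h := fun a => Iff.rfl
  let Q : Sylow 2 Γ := default
  let Ω : SubMulAction Q G := ⟨{y | π y = h}, fun a y (hy : π y = h) => by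
    show π (a.1.1.1 * y ^ (a.1.1.2 : ℤ) * a.1.1.1⁻¹) = h
    rw [map_mul, map_mul, map_zpow, map_inv, hy]
    exact (mem _).1 a.1.2⟩
  have hΩ : Nat.card Ω = Nat.card N := by
    obtain ⟨y, rfl⟩ := QuotientGroup.mk'_surjective N h
    exact (Nat.card_congr (π.fiberEquivKer y)).trans (by rw [QuotientGroup.ker_mk'])
  obtain ⟨⟨y, hy⟩, fx⟩ := Q.isPGroup'.nonempty_fixed_point_of_prime_not_dvd_card Ω
    (by rw [hΩ]; exact hN.not_two_dvd_nat)
  obtain rfl : π y = h := hy
  have fx : ∀ a ∈ (Q : Subgroup Γ), a.1.1 * y ^ (a.1.2 : ℤ) * a.1.1⁻¹ = y := fun a ha =>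
    congrArg Subtype.val (fx ⟨a, ha⟩)
  let s := (MonoidHom.snd G ℤˣ).comp Γ.subtype
  have hy : IsConj y y⁻¹ := by
    by_contra hn
    have h1 : (Q : Subgroup Γ) ≤ s.ker := fun a ha => (Int.units_eq_one_or a.1.2).resolve_right
      fun e => hn (isConj_iff.2 ⟨a.1.1, by
        have := fx a ha
        rw [e] at this
        simpa [mul_assoc] using congrArg (·⁻¹) this⟩)
    obtain ⟨g, hg⟩ := isConj_iff.1 hr
    obtain ⟨g, rfl⟩ := QuotientGroup.mk'_surjective N g
    have h2 : s.range = ⊤ := eq_top_iff.2 fun e _ => by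
      rcases Int.units_eq_one_or e with rfl | rfl
      · exact one_mem _
      · exact ⟨⟨(g, -1), (mem _).2 (by
          rw [← inv_inj, ← hg]
          simp [mul_assoc, π])⟩, rfl⟩
    refine Q.not_dvd_index (Dvd.dvd.trans ?_ (index_dvd_of_le h1))
    rw [index_ker, h2, card_top, Nat.card_eq_fintype_card, Fintype.card_units_int]
  rw [← H y hy fun e => hc (mem_center_iff.2 fun g => by
    obtain ⟨g, rfl⟩ := QuotientGroup.mk'_surjective N g
    rw [← map_mul, mem_center_iff.1 e, map_mul])]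
  refine le_antisymm ?_ (red_le Nat.card_pos.ne' hN.not_two_dvd_nat ?_)
  · have T := Tech.sylow_inf_normal Q s.ker
    refine red_le Nat.card_pos.ne' T.not_dvd (Dvd.dvd.trans ?_ (Dvd.dvd.trans
      (dvd_of_eq (Tech.card_mul_relIndex' T.le).symm) (Nat.mul_dvd_mul_right ?_ _)))
    · refine (card_dvd_of_le fun g hg => ?_).trans
        (card_map_dvd s.ker (π.comp ((MonoidHom.fst G ℤˣ).comp Γ.subtype)))
      obtain ⟨g, rfl⟩ := QuotientGroup.mk'_surjective N g
      exact ⟨⟨(g, 1), (mem _).2 (by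
        simpa [mul_inv_eq_iff_eq_mul, π] using mem_centralizer_singleton_iff.1 hg)⟩, rfl, rfl⟩
    · refine card_dvd_of_injective (((MonoidHom.fst G ℤˣ).comp (Γ.subtype.comp (Subgroup.subtype _))).codRestrict
        _ fun a => mem_centralizer_singleton_iff.2 ?_) fun a b e => Subtype.ext (Subtype.ext (Prod.ext
          (congrArg Subtype.val e) ((a.2.2 : s a.1 = 1).trans (b.2.2 : s b.1 = 1).symm)))
      have := fx a a.2.1
      rw [show a.1.1.2 = 1 from a.2.2] at this
      simpa [mul_inv_eq_iff_eq_mul] using this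
  · rw [← Core.card_comap_mk']
    exact card_dvd_of_le fun g hg => mem_centralizer_singleton_iff.2 (by
      rw [← map_mul, mem_centralizer_singleton_iff.1 hg, map_mul])

theorem final {G : Type u} [Group G] [Finite G]
    (core : ∀ (X : Type u) [Group X] [Finite X] (d : ℕ), oddCore X = ⊥ → Hyp X d →
      ∀ P : Sylow 2 X, (P : Subgroup X).Normal)
    (a : ℕ) (h : ∀ x : G, IsConj x x⁻¹ → x ∉ Subgroup.center G →
      ((Subgroup.centralizer ({x} : Set G)).index).factorization 2 = a) :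
    ∃ N K : Subgroup G, N.Normal ∧ K.Normal ∧ N ≤ K ∧ Odd (Nat.card N) ∧ Odd K.index ∧
      ∃ j : ℕ, N.relIndex K = 2 ^ j := by
  have H : Hyp G ((Nat.card G).factorization 2 - a) := fun x hx hc => by
    rw [← h x hx hc, ← (centralizer ({x} : Set G)).card_mul_index,
      Nat.factorization_mul Nat.card_pos.ne' index_ne_zero_of_finite, Finsupp.add_apply,
      Nat.add_sub_cancel]
  have hn : (oddCore G).Normal := inferInstance
  have ho := Core.odd_card_oddCore G
  let P : Sylow 2 (G ⧸ oddCore G) := default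
  have := core _ _ (Core.pPrimeCore_quotient_pPrimeCore 2 G) (hyp_quot H _ ho) P
  obtain ⟨j, hj⟩ := IsPGroup.iff_card.1 P.isPGroup'
  refine ⟨_, (P : Subgroup _).comap (QuotientGroup.mk' (oddCore G)), hn, this.comap _,
    QuotientGroup.le_comap_mk' _ _, ho, ?_, j, ?_⟩
  · rw [index_comap_of_surjective _ (QuotientGroup.mk'_surjective _), ← Nat.not_even_iff_odd,
      even_iff_two_dvd]
    exact P.not_dvd_index
  · have e := Tech.card_mul_relIndex' (QuotientGroup.le_comap_mk' (oddCore G) (P : Subgroup _))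
    rw [Core.card_comap_mk', hj, mul_comm] at e
    exact Nat.eq_of_mul_eq_mul_right Nat.card_pos e

end CfsgLib.RealCls
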