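import Cfsg.Agent.Lib.RealCls.Basic
import Cfsg.Agent.Lib.Classical.SLCard

set_option autoImplicit false

namespace CfsgLib.RealCls

open Subgroup Cfsg Matrix
open scoped MatrixGroups

variable {F : Type} [Field F] [Fintype F]

theorem w1_four (hF : 4 ≤ Fintype.card F) : 2 ^ 2 ∣ Nat.card PSL(2, F) := by
  have h := CfsgLib.Classical.psl2_card_mul (F := F)
  obtain ⟨p, hp⟩ := CharP.exists F
  obtain ⟨n, pp, hn⟩ := FiniteField.card F p
  rcases pp.eq_two_or_odd' with rfl | ho
  · obtain ⟨k, hk⟩ : ∃ k, (n : ℕ) = k + 2 := by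
      refine ⟨n - 2, ?_⟩
      by_contra h0
      have := Nat.pow_le_pow_right (n := 2) two_pos (show (n : ℕ) ≤ 1 by omega)
      omega
    have e : Fintype.card F = 2 ^ 2 * 2 ^ k := by rw [hn, hk]; ring
    have : Nat.gcd 2 (Fintype.card F - 1) = 1 := by
      have : 0 < 2 ^ k := by positivity
      exact Nat.coprime_two_left.2 (show Odd (Fintype.card F - 1) from ⟨2 * 2 ^ k - 1, by omega⟩)
    rw [this, one_mul] at h
    rw [h]
    exact Dvd.dvd.mul_right ⟨_, e⟩ _
  · obtain ⟨k, hk⟩ : Odd (Fintype.card F) := hn ▸ ho.pow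
    have e1 : Nat.gcd 2 (Fintype.card F - 1) = 2 := Nat.gcd_eq_left ⟨k, by omega⟩
    obtain ⟨j, hj⟩ := Nat.even_mul_succ_self k
    have e2 : Fintype.card F ^ 2 - 1 = 2 * (2 ^ 2 * j) :=
      Nat.sub_eq_of_eq_add (by rw [hk]; linear_combination 4 * hj)
    rw [e1, e2, mul_left_comm] at h
    rw [Nat.eq_of_mul_eq_mul_left two_pos h]
    exact Dvd.dvd.mul_left (dvd_mul_right _ _) _

theorem w1_gen (hF : 4 ≤ Fintype.card F) (X₀ U₀ : Matrix (Fin 2) (Fin 2) F) (dX : X₀.det = 1)
    (dU : U₀.det = 1) {n : ℕ} (hn : Odd n) (hX₀ : X₀ ^ n = 1)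
    (h0 : ∀ r, scalar (Fin 2) r ≠ X₀) (hU₀ : X₀ * U₀ * X₀ = U₀)
    (h : ∀ g : Matrix (Fin 2) (Fin 2) F, g.det = 1 → g * X₀ = X₀ * g → ∀ s : F, s ^ 2 = 1 →
      scalar (Fin 2) s = g * g → ∃ r : F, r ^ 2 = 1 ∧ scalar (Fin 2) r = g) : Wit PSL(2, F) 2 := by
  obtain ⟨X, rfl⟩ : ∃ X : SL(2, F), X.1 = X₀ := ⟨⟨_, dX⟩, rfl⟩
  obtain ⟨U, rfl⟩ : ∃ U : SL(2, F), U.1 = U₀ := ⟨⟨_, dU⟩, rfl⟩
  have hX : X ^ n = 1 := Subtype.ext hX₀
  have hU : X * U * X = U := Subtype.ext hU₀
  have h1 : X ∉ center SL(2, F) := fun h => by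
    obtain ⟨r, -, e⟩ := Matrix.SpecialLinearGroup.mem_center_iff.1 h
    exact h0 r e
  let mk : SL(2, F) →* PSL(2, F) := QuotientGroup.mk' _
  have one : ∀ g, mk g = 1 ↔ g ∈ center SL(2, F) := QuotientGroup.eq_one_iff
  have sq : ∀ z ∈ center SL(2, F), z ^ 2 = 1 := fun z hz => by
    obtain ⟨r, h1, h2⟩ := Matrix.SpecialLinearGroup.mem_center_iff.1 hz
    refine Subtype.ext (show z.1 ^ 2 = 1 from ?_)
    rw [← show _ = z.1 from h2, ← map_pow, show r ^ 2 = 1 from h1, map_one]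
  refine wit_of_odd (xs_of (x := mk X) (u := mk U) (mt (one X).1 h1)
    (hn.of_dvd_nat (orderOf_dvd_of_pow_eq_one (by rw [← map_pow, hX, map_one]))) ?_)
    (fun e e2 c => ?_) (w1_four hF)
  · rw [mul_inv_eq_iff_eq_mul, eq_inv_mul_iff_mul_eq, ← mul_assoc, ← map_mul, ← map_mul, hU]
  obtain ⟨g, rfl⟩ : ∃ g, mk g = e := QuotientGroup.mk'_surjective _ e
  have hz : X⁻¹ * (g * X * g⁻¹) ∈ center SL(2, F) := (one _).1 (by
    simp only [map_mul, map_inv]
    rw [c]; group)
  have z1 : X⁻¹ * (g * X * g⁻¹) = 1 := by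
    obtain ⟨k, rfl⟩ := hn
    have e1 : (X * (X⁻¹ * (g * X * g⁻¹))) ^ (2 * k + 1) = 1 := by
      rw [mul_inv_cancel_left, conj_pow, hX]; group
    rwa [Commute.mul_pow (mem_center_iff.1 hz X), hX, one_mul, pow_succ, pow_mul, sq _ hz,
      one_pow, one_mul] at e1
  obtain ⟨s, s1, s2⟩ :=
    Matrix.SpecialLinearGroup.mem_center_iff.1 ((one _).1 ((map_mul mk g g).trans e2))
  have c1 : g * X = X * g := mul_inv_eq_iff_eq_mul.1 (inv_mul_eq_one.1 z1).symm
  exact (one g).2 (Matrix.SpecialLinearGroup.mem_center_iff.2 (h g.1 g.2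
    (congrArg (fun m : SL(2, F) => m.1) c1) s s1 s2))

theorem wit_psl2 {F : Type} [Field F] [Fintype F] (hF : 4 ≤ Fintype.card F) :
    Wit (Matrix.ProjectiveSpecialLinearGroup (Fin 2) F) 2 := by
  by_cases h4 : 4 ∣ Fintype.card F - 1
  · obtain ⟨i, hi⟩ : IsSquare (-1 : F) := FiniteField.isSquare_neg_one_iff.2 (by omega)
    obtain ⟨p, hp⟩ := CharP.exists F
    obtain ⟨n, pp, hn⟩ := FiniteField.card F p
    have ho : Odd p := pp.eq_two_or_odd'.resolve_left fun e => by
      have : 2 ∣ Fintype.card F := by rw [hn, e]; exact dvd_pow_self 2 n.ne_zero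
      omega
    have h2 : (2 : F) ≠ 0 := fun e => by
      have := (CharP.cast_eq_zero_iff F p 2).1 e
      rw [(Nat.prime_dvd_prime_iff_eq pp Nat.prime_two).1 this] at ho
      exact absurd ho (by decide)
    have pw : ∀ k : ℕ, !![(1 : F), 1; 0, 1] ^ k = !![1, (k : F); 0, 1] := fun k => by
      induction k with
      | zero => simp [one_fin_two]
      | succ k ih => simp [pow_succ, ih, add_comm]
    refine w1_gen hF !![1, 1; 0, 1] !![i, 0; 0, -i] (by simp) (by simp [← hi]) ho ?_ ?_ (by simp) ?_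
    · rw [pw]
      simp [one_fin_two]
    · intro r e
      simpa using congrFun (congrFun e 0) 1
    · intro g d c s _ e
      have c0 := congrFun (congrFun c 0) 0
      have c1 := congrFun (congrFun c 0) 1
      have e1 := congrFun (congrFun e 0) 1
      rw [det_fin_two] at d
      simp [mul_apply, Fin.sum_univ_two] at c0 c1 e1
      have a1 : g 1 1 = g 0 0 := by linear_combination -c1
      have a2 : g 0 0 ^ 2 = 1 := by rw [a1, c0] at d; linear_combination d
      have a3 : g 0 1 = 0 := by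
        refine (mul_eq_zero.1 (?_ : 2 * g 0 1 = 0)).resolve_left h2
        rw [a1] at e1
        linear_combination -(g 0 0) * e1 - 2 * g 0 1 * a2
      refine ⟨g 0 0, a2, ?_⟩
      ext a b
      fin_cases a <;> fin_cases b <;> simp [a1, a3, c0]
  · obtain ⟨p, pp, hp, ho⟩ := (Nat.four_dvd_or_exists_odd_prime_and_dvd_of_two_lt
      (show 2 < Fintype.card F - 1 by omega)).resolve_left h4
    have := Fact.mk pp
    classical
    obtain ⟨l, hl⟩ := exists_prime_orderOf_dvd_card (G := Fˣ) p (by rwa [Fintype.card_units])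
    have l1 : l ^ p = 1 := hl ▸ pow_orderOf_eq_one l
    have l2 : (l : F) ≠ (l⁻¹ : Fˣ) := fun e => by
      have : p ∣ 2 := hl ▸ orderOf_dvd_of_pow_eq_one (by
        rw [pow_two, mul_eq_one_iff_eq_inv]; exact Units.ext e)
      rw [(Nat.prime_dvd_prime_iff_eq pp Nat.prime_two).1 this] at ho
      exact absurd ho (by decide)
    have pw : ∀ (a b : F) (k : ℕ), !![a, 0; 0, b] ^ k = !![a ^ k, 0; 0, b ^ k] := fun a b k => by
      induction k with
      | zero => simp [one_fin_two]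
      | succ k ih => simp [pow_succ, ih]
    refine w1_gen hF !![(l : F), 0; 0, (l⁻¹ : Fˣ)] !![0, 1; -1, 0] (by simp) (by simp) ho ?_ ?_
      (by simp) ?_
    · rw [pw, ← Units.val_pow_eq_pow_val, ← Units.val_pow_eq_pow_val, inv_pow, l1]
      simp [one_fin_two]
    · intro r e
      have e0 := congrFun (congrFun e 0) 0
      have e1 := congrFun (congrFun e 1) 1
      simp only [scalar_apply, diagonal_apply_eq] at e0 e1
      exact l2 (e0.symm.trans e1)
    · intro g d c s s1 e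
      have c0 := congrFun (congrFun c 0) 1
      have c1 := congrFun (congrFun c 1) 0
      have e1 := congrFun (congrFun e 0) 0
      rw [det_fin_two] at d
      generalize ((l⁻¹ : Fˣ) : F) = l' at *
      simp [mul_apply, Fin.sum_univ_two] at c0 c1 e1
      have l3 := sub_ne_zero.2 l2
      have a1 : g 0 1 = 0 := (mul_eq_zero.1 (by linear_combination -c0)).resolve_left l3
      have a2 : g 1 0 = 0 := (mul_eq_zero.1 (by linear_combination c1)).resolve_left l3
      rw [a1] at d e1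
      have a0 : g 0 0 ≠ 0 := fun e => by simp [e] at d
      have a4 : g 0 0 ^ 4 = 1 := by rw [← s1, e1]; ring
      have a5 := FiniteField.pow_card_sub_one_eq_one _ a0
      rw [← Nat.div_add_mod (Fintype.card F - 1) 4, pow_add, pow_mul, a4, one_pow, one_mul] at a5
      have a6 : g 0 0 ^ 2 = 1 := by
        obtain h | h | h : (Fintype.card F - 1) % 4 = 1 ∨ (Fintype.card F - 1) % 4 = 2 ∨
          (Fintype.card F - 1) % 4 = 3 := by omega
        · rw [h, pow_one] at a5; rw [a5, one_pow]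
        · rwa [h] at a5
        · rw [h] at a5
          linear_combination (g 0 0 + 1) * (a4 - g 0 0 * a5)
      have a7 : g 1 1 = g 0 0 := by linear_combination g 0 0 * d - g 1 1 * a6
      refine ⟨g 0 0, a6, ?_⟩
      ext a b
      fin_cases a <;> fin_cases b <;> simp [a1, a2, a7]

end CfsgLib.RealCls
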