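import Cfsg.Agent.Lib.RealCls.Basic
import Cfsg.Agent.S1163

set_option autoImplicit false

namespace CfsgLib.RealCls

open Subgroup Cfsg

theorem w2_a7 : ∀ a b c : Fin 7, ∀ g x : Fin 7 → Fin 7, x = ![1, 2, 3, 4, 0, 5, 6] →
    g = ![a, x a, x (x a), x (x (x a)), x (x (x (x a))), b, c] → (∀ i, g (g i) = i) →
    (∀ i, g i = i) ∨ ∀ i, g i = Equiv.swap 5 6 i := by
  rintro a b c _ _ rfl rfl
  revert a b c
  decide +kernel

theorem wit_a7 : Wit (alternatingGroup (Fin 7)) 2 := by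
  obtain ⟨x, hx⟩ : ∃ x : alternatingGroup (Fin 7), x.1 = c[0, 1, 2, 3, 4] :=
    ⟨⟨_, Equiv.Perm.mem_alternatingGroup.2 (by decide +kernel)⟩, rfl⟩
  obtain ⟨u, hu⟩ : ∃ u : alternatingGroup (Fin 7), u.1 = Equiv.swap 1 4 * Equiv.swap 2 3 :=
    ⟨⟨_, Equiv.Perm.mem_alternatingGroup.2 (by decide +kernel)⟩, rfl⟩
  have : Fact (Nat.Prime 5) := ⟨by norm_num⟩
  have x1 : x ≠ 1 := fun e => by
    rw [e] at hx
    exact absurd hx.symm (show _ ≠ (1 : Equiv.Perm (Fin 7)) by decide +kernel)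
  have h5 : orderOf x = 5 := orderOf_eq_prime (Subtype.ext (by
    rw [Subgroup.coe_pow, hx, Subgroup.coe_one]; decide +kernel)) x1
  refine wit_of_odd (xs_of (u := u) x1 (by rw [h5]; decide) (Subtype.ext (by
    simp only [Subgroup.coe_mul, Subgroup.coe_inv, hx, hu]; decide +kernel))) (fun e e2 c => ?_)
    (by rw [nat_card_alternatingGroup]; simp [Nat.factorial])
  have c1 : ∀ i, e.1 (x.1 i) = x.1 (e.1 i) := fun i => congrArg (fun g => g.1 i) c
  have c2 : ∀ i, e.1 (e.1 i) = i := fun i => congrArg (fun g => g.1 i) e2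
  have c3 : (x.1 : Fin 7 → Fin 7) = ![1, 2, 3, 4, 0, 5, 6] := by rw [hx]; decide +kernel
  rcases w2_a7 (e.1 0) (e.1 5) (e.1 6) e.1 x.1 c3 (by
    simp only [← c1]
    rw [c3]
    funext i
    fin_cases i <;> rfl) c2 with h | h
  · exact Subtype.ext (Equiv.ext h)
  · have := Equiv.Perm.mem_alternatingGroup.1 e.2
    rw [show e.1 = Equiv.swap 5 6 from Equiv.ext h, Equiv.Perm.sign_swap (by decide)] at this
    exact absurd this (by decide)

theorem w2_sz {F : Type} [Field F] [Fintype F] {m : ℕ} (hm : 1 ≤ m)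
    (hF : Fintype.card F = 2 ^ (2 * m + 1)) : Wit (Cfsg.Lie.Sz F (2 ^ (m + 1))) (2 * m + 1) := by
  obtain ⟨h1, S, -, h2, -⟩ := Cfsg.Agent.S1163.result hm hF
  revert h1 S h2
  rw [Sz.lieSz_eq hF]
  generalize Sz.tits hF = τ
  intro h1 S h2
  obtain ⟨x, hx⟩ := exists_xs S fun h => by
    rw [normalizer_eq_top_iff.2 h, index_top] at h2
    have : 0 < (2 ^ (2 * m + 1)) ^ 2 := by positivity
    omega
  refine wit_of_odd hx (fun e e2 c => by_contra fun e1 => hx.1 ?_)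
    (by rw [h1, pow_two, mul_assoc, mul_assoc]; exact dvd_mul_right _ _)
  have h3 : e ^ 2 ^ 1 = 1 := by rw [pow_one, pow_two, e2]
  obtain ⟨ω, hω⟩ := Sz.Tits.exists_fixed_of_pow h3
  have := Sz.Tits.mem_Upt_of_comm (Sz.Tits.mem_Upt_of_pow hω h3) e1 c.symm
  exact Two.eq_one ⟨2, (Sz.Tits.mem_Upt.1 this).2⟩ hx.2.1

theorem wit_sz8 {F : Type} [Field F] [Fintype F] (hF : Fintype.card F = 8) : Wit (Cfsg.Lie.Sz F 4) 3 :=
  w2_sz (m := 1) le_rfl hF

end CfsgLib.RealCls
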